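import Cfsg.Agent.H43.M22Main
import Cfsg.Agent.H43.CoverLift
import Cfsg.Agent.H89.M22.Quasi
import Cfsg.Agent.H87.M22.Fixed
import Cfsg.Agent.H53.TypeWitness
import Cfsg.Agent.H17.Primitive
import Cfsg.Agent.H51.Quasisimple

set_option autoImplicit false

/-!
In a central extension by a group of order two of a group of type M(22) every involution is the image of an
involution: lifts of commuting members commute and seven commuting members have trivial product.
-/

namespace Cfsg.Agent.H98.M22L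

open Cfsg Cfsg.Agent.H17.UPoints Cfsg.Agent.H43.FischerTwins Cfsg.Agent.H89.M22

variable {F : Type} [Field F] [Fintype F] [DecidableEq F] {G : Type*} [Group G] [Finite G] {D : Set G}

set_option maxHeartbeats 1600000 in
/-- Two triples of commuting partners of a member whose products differ by that member. -/
theorem exists_odd_relation (hF : Fintype.card F = 4) (hC : Ctx D F) :
    ∃ a ∈ D, ∃ x y : Fin 3 → G, (∀ k, x k ∈ Sset D a) ∧ (∀ k, y k ∈ Sset D a) ∧
      (∀ k l, Commute (x k) (x l)) ∧ (∀ k l, Commute (y k) (y l)) ∧ y 0 * y 1 * y 2 = a * (x 0 * x 1 * x 2) := by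
  obtain ⟨a, ha, -⟩ := hC.cls.2.1
  obtain ⟨M⟩ := exists_mdl hC ha
  -- three orthonormal frames of a totally isotropic plane
  obtain ⟨w, hw⟩ := exists_trace hF (Or.inr rfl : (1 : F) = 0 ∨ (1 : F) = 1)
  have h2 := add_self hF (1 : F)
  have hw0 : w ≠ 0 := fun h => by simp [h] at hw
  have hw1 : w ≠ 1 := fun h => by
    rw [h] at hw
    exact zero_ne_one ((show (1 : F) + 1 ^ 2 = 0 by linear_combination h2).symm.trans hw)
  have hw3 := cube hF hw0
  have hw2 : w ^ 2 ≠ 1 := fun h => hw1 (by linear_combination hw3 - w * h)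
  have hww : w ^ 2 ≠ w := fun h => hw2 (by
    rw [h]; exact (hw1 (mul_left_cancel₀ hw0 (by rw [mul_one, ← pow_two]; exact h))).elim)
  let V : Fin 3 → Fin 3 → Fin 6 → F :=
    ![![pl 1 1 1, pl 1 w (w ^ 2), pl 1 (w ^ 2) w],
      ![pl 1 1 w, pl 1 w 1, pl w 1 1],
      ![pl 1 1 (w ^ 2), pl 1 (w ^ 2) 1, pl (w ^ 2) 1 1]]
  have hV : ∀ i k, IsP (V i k) := fun i k => by
    fin_cases i <;> fin_cases k <;>
      first
      | exact isP_pl hF one_ne_zero
      | exact isP_pl hF hw0
      | exact isP_pl hF (pow_ne_zero _ hw0)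
  have hVV : ∀ i k j l, herm (V i k) (V j l) = 0 := fun i k j l => by
    fin_cases i <;> fin_cases k <;> fin_cases j <;> fin_cases l <;> exact herm_pl_pl hF ..
  have hprod : ∀ i z, act (trv hF (V i 0) * trv hF (V i 1) * trv hF (V i 2)) z =
      z + pl (z 0 + z 1) (z 2 + z 3) (z 4 + z 5) := by
    intro i z
    rw [trv_three hF (hV i 0).2 (hV i 1).2 (hV i 2).2 (hVV _ _ _ _) (hVV _ _ _ _) (hVV _ _ _ _)]
    congr 1
    have hw5 : w ^ 2 * (w ^ 2) ^ 2 = 1 := by linear_combination (w * w * w + 1) * hw3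
    fin_cases i
    all_goals
      show _ + _ + _ = _
      simp only [V, Fin.zero_eta, Fin.mk_one, Fin.reduceFinMk, Fin.isValue, Matrix.cons_val_zero,
        Matrix.cons_val_one, Matrix.cons_val]
      simp only [herm_pl]
      funext j
      fin_cases j <;>
        simp only [pl, Pi.add_apply, Pi.smul_apply, smul_eq_mul, Matrix.cons_val, Fin.isValue,
          Fin.reduceFinMk, Fin.zero_eta, Fin.mk_one] <;>
        grobner
  have hdist : ∀ i k j l, V i k ∈ Submodule.span F {V j l} → i = j ∧ k = l := by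
    intro i k j l h
    fin_cases i <;> fin_cases k <;> fin_cases j <;> fin_cases l <;>
      first
      | exact ⟨rfl, rfl⟩
      | exfalso
        obtain ⟨c, h1, h2', h3⟩ := pl_span h
        grobner
  have pick : ∀ i k, ∃ x ∈ Sset D a, ∃ c : F, c ≠ 0 ∧ M.pt x = c • V i k :=
    fun i k => M.onto _ (hV i k)
  choose x hx c hc hxv using pick
  have hinj : ∀ i k j l, x i k = x j l → i = j ∧ k = l := fun i k j l h => by
    refine hdist i k j l (Submodule.mem_span_singleton.2 ⟨(c i k)⁻¹ * c j l, ?_⟩)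
    rw [← smul_smul, ← hxv, ← h, hxv, smul_smul, inv_mul_cancel₀ (hc i k), one_smul]
  have hcomm : ∀ i k j l, Commute (x i k) (x j l) := fun i k j l =>
    (M.commute_iff _ (hx i k) _ (hx j l)).2 (by
      rw [hxv, hxv, herm_smul_left hF, herm_smul_right hF, hVV, mul_zero, mul_zero])
  let J : Fin 3 → ↥(Subgroup.closure (Sset D a)) := fun i =>
    ⟨x i 0, Subgroup.subset_closure (hx i 0)⟩ * ⟨x i 1, Subgroup.subset_closure (hx i 1)⟩ *
      ⟨x i 2, Subgroup.subset_closure (hx i 2)⟩
  have hfJ : ∀ i, M.f (J i) = M.f (J 0) := by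
    intro i
    have e : ∀ i, M.f (J i) = QuotientGroup.mk' (Subgroup.center ↥(Cfsg.SU 6 F 2))
        (trv hF (V i 0) * trv hF (V i 1) * trv hF (V i 2)) := fun i => by
      simp only [J, map_mul, M.f_eq _ (hx i 0), M.f_eq _ (hx i 1), M.f_eq _ (hx i 2), hxv,
        trv_smul hF (hc i 0) (hV i 0).2, trv_smul hF (hc i 1) (hV i 1).2,
        trv_smul hF (hc i 2) (hV i 2).2]
    rw [e, e, show trv hF (V i 0) * trv hF (V i 1) * trv hF (V i 2) =
      trv hF (V 0 0) * trv hF (V 0 1) * trv hF (V 0 2) from ext_act fun z => by rw [hprod, hprod]]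
  by_cases hJ : ∀ i, ((J i : ↥(Subgroup.closure (Sset D a))) : G) = J 0
  · exact (not_three hF hC (p := fun i => x i 0) (q := fun i => x i 1) (r := fun i => x i 2)
      (fun i => ⟨(hx i 0).1, (hx i 1).1, (hx i 2).1⟩)
      (fun i => ⟨hcomm _ _ _ _, hcomm _ _ _ _, hcomm _ _ _ _⟩)
      (fun i => ⟨fun h => absurd (hinj _ _ _ _ h).2 (by decide),
        fun h => absurd (hinj _ _ _ _ h).2 (by decide),
        fun h => absurd (hinj _ _ _ _ h).2 (by decide)⟩)
      (fun i => by simpa [J] using hJ i)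
      (fun i j hij => ⟨fun h => hij (hinj _ _ _ _ h).1, fun h => hij (hinj _ _ _ _ h).1,
        fun h => hij (hinj _ _ _ _ h).1⟩)).elim
  obtain ⟨i, hi⟩ := not_forall.1 hJ
  have hcen : ∀ e ∈ Sset D a, Commute ((J 0 : G)⁻¹ * (J i : G)) e := fun e he => by
    have h := congrArg Subtype.val (Subgroup.mem_center_iff.1
      ((M.ker ((J 0)⁻¹ * J i)).1 (by rw [map_mul, map_inv, hfJ i, inv_mul_cancel]))
      ⟨e, Subgroup.subset_closure he⟩)
    simp only [Subgroup.coe_mul, Subgroup.coe_inv] at h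
    exact h.symm
  rcases centralizer_sset hC ha hcen with h | h
  · exact absurd (inv_mul_eq_one.1 h).symm hi
  refine ⟨a, ha, fun k => x 0 k, fun k => x i k, fun k => hx 0 k, fun k => hx i k,
    fun k l => hcomm _ _ _ _, fun k l => hcomm _ _ _ _, ?_⟩
  have h' : ((J i : ↥(Subgroup.closure (Sset D a))) : G) = (J 0 : G) * a := inv_mul_eq_iff_eq_mul.1 h
  have hc0 : Commute (J 0 : G) a :=
    ((hx 0 0).2.2.symm.mul_left (hx 0 1).2.2.symm).mul_left (hx 0 2).2.2.symm
  simpa [J] using h'.trans hc0.eq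

/-- Every involution is a product of pairwise commuting members. -/
theorem involution_prod (hF : Fintype.card F = 4) (hC : Ctx D F) (h22 : Cfsg.IsOfTypeM22 G D) {x : G}
    (hx : x * x = 1) : ∃ l : List G, (∀ y ∈ l, y ∈ D) ∧ (∀ y ∈ l, ∀ z ∈ l, Commute y z) ∧ l.prod = x := by
  have hG := H17.class_group hC.cls
  have hxi : x⁻¹ = x := inv_eq_of_mul_eq_one_right hx
  obtain ⟨a, ha, hfix⟩ := H87.M22.exists_fixed hG hC.prim h22 (MulAut.conj x)
    (fun y => by
      rw [MulAut.conj_apply, MulAut.conj_apply, hxi]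
      calc x * (x * y * x) * x = (x * x) * y * (x * x) := by group
        _ = y := by rw [hx, one_mul, mul_one])
    (fun y hy => hG.2.1 x y hy)
  have hxa : x ∈ Subgroup.centralizer ({a} : Set G) :=
    Subgroup.mem_centralizer_singleton_iff.2 (mul_inv_eq_iff_eq_mul.1 hfix)
  rw [H43.M22.centralizer_partners hC.cls hC.prim h22 ha] at hxa
  obtain ⟨M⟩ := exists_mdl hC ha
  obtain ⟨g0, hg0⟩ := QuotientGroup.mk_surjective (M.f ⟨x, hxa⟩)
  have h3 : ∀ c ∈ Subgroup.center ↥(Cfsg.SU 6 F 2), c ^ 3 = 1 := fun c hc => by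
    have h1 : (⟨c, hc⟩ : ↥(Subgroup.center ↥(Cfsg.SU 6 F 2))) ^
        Nat.card ↥(Subgroup.center ↥(Cfsg.SU 6 F 2)) = 1 := pow_card_eq_one'
    rw [H3.card_center_SU (cardSq hF) (by norm_num)] at h1
    exact congrArg Subtype.val h1
  have hf2 : M.f ⟨x, hxa⟩ * M.f ⟨x, hxa⟩ = 1 := by
    rw [← map_mul, show (⟨x, hxa⟩ : ↥(Subgroup.closure (Sset D a))) * ⟨x, hxa⟩ = 1 from Subtype.ext hx,
      map_one]
  have hg2 : g0 * g0 ∈ Subgroup.center ↥(Cfsg.SU 6 F 2) := by
    rw [← QuotientGroup.eq_one_iff, QuotientGroup.mk_mul, hg0, hf2]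
  have hg3 : g0 ^ 3 * g0 ^ 3 = 1 := by
    rw [← pow_add, show 3 + 3 = 2 * 3 from rfl, pow_mul, pow_two]
    exact h3 _ hg2
  obtain ⟨lv, hlv, hprod⟩ := Cfsg.Agent.H43.involution_decomp hF (g0 ^ 3) hg3
  have pick : ∀ v : Fin 6 → F, ∃ t : G, v ∈ lv → t ∈ Sset D a ∧ ∃ c : F, c ≠ 0 ∧ M.pt t = c • v := fun v => by
    by_cases hv : v ∈ lv
    · obtain ⟨t, ht, h⟩ := M.onto v ⟨(hlv v hv).1, (hlv v hv).2.1⟩
      exact ⟨t, fun _ => ⟨ht, h⟩⟩
    · exact ⟨1, fun h => absurd h hv⟩
  choose t ht using pick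
  let u : (Fin 6 → F) → ↥(Subgroup.closure (Sset D a)) := fun v =>
    if h : v ∈ lv then ⟨t v, Subgroup.subset_closure (ht v h).1⟩ else 1
  have hu : ∀ v ∈ lv, (u v : G) = t v ∧ M.f (u v) =
      QuotientGroup.mk' (Subgroup.center ↥(Cfsg.SU 6 F 2)) (trv hF v) := fun v hv => by
    obtain ⟨hts, c, hc, hcv⟩ := ht v hv
    simp only [u, dif_pos hv, true_and]
    rw [M.f_eq _ hts, hcv, trv_smul hF hc (hlv v hv).2.1]
  have hfl : ∀ l' : List (Fin 6 → F), (∀ v ∈ l', v ∈ lv) → M.f (l'.map u).prod =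
      QuotientGroup.mk' (Subgroup.center ↥(Cfsg.SU 6 F 2)) (l'.map (trv hF)).prod := by
    intro l'
    induction l' with
    | nil => intro _; simp
    | cons v s ih =>
      intro h
      rw [List.map_cons, List.map_cons, List.prod_cons, List.prod_cons, map_mul, map_mul,
        (hu v (h v (List.mem_cons_self ..))).2, ih fun w hw => h w (List.mem_cons_of_mem _ hw)]
  have hfx : M.f (lv.map u).prod = M.f ⟨x, hxa⟩ := by
    rw [hfl lv fun v hv => hv, ← hprod, map_pow, QuotientGroup.mk'_apply, hg0, pow_succ, pow_two, hf2, one_mul]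
  have hcen : ((lv.map u).prod)⁻¹ * (⟨x, hxa⟩ : ↥(Subgroup.closure (Sset D a))) ∈
      Subgroup.center ↥(Subgroup.closure (Sset D a)) :=
    (M.ker _).1 (by rw [map_mul, map_inv, hfx, inv_mul_cancel])
  rw [(quasisimple_closure hC ha).2, Subgroup.mem_subgroupOf, Subgroup.mem_zpowers_iff] at hcen
  obtain ⟨k, hk⟩ := hcen
  have haa := H17.sq_one hG.1 ha
  have hcoe : ((lv.map u).prod : G) = (lv.map t).prod := by
    rw [SubmonoidClass.coe_list_prod, List.map_map]
    exact congrArg List.prod (List.map_congr_left fun v hv => (hu v hv).1)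
  have hmem : ∀ y ∈ lv.map t, y ∈ Sset D a ∧ ∀ z ∈ lv.map t, Commute y z := by
    intro y hy
    obtain ⟨v, hv, rfl⟩ := List.mem_map.1 hy
    refine ⟨(ht v hv).1, fun z hz => ?_⟩
    obtain ⟨w, hw, rfl⟩ := List.mem_map.1 hz
    obtain ⟨hvs, c, -, hcv⟩ := ht v hv
    obtain ⟨hws, c', -, hcw⟩ := ht w hw
    rw [M.commute_iff _ hvs _ hws, hcv, hcw, herm_smul_left hF, herm_smul_right hF,
      (hlv v hv).2.2 w hw, mul_zero, mul_zero]
  simp only [Subgroup.coe_mul, Subgroup.coe_inv] at hk
  rw [hcoe, eq_inv_mul_iff_mul_eq] at hk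
  rcases Int.even_or_odd' k with ⟨n, rfl | rfl⟩
  · refine ⟨lv.map t, fun y hy => (hmem y hy).1.1, fun y hy => (hmem y hy).2, ?_⟩
    rw [zpow_mul, zpow_two, haa, one_zpow, mul_one] at hk
    exact hk
  · refine ⟨lv.map t ++ [a], fun y hy => ?_, fun y hy z hz => ?_, ?_⟩
    · rcases List.mem_append.1 hy with h | h
      · exact (hmem y h).1.1
      · rw [List.mem_singleton.1 h]; exact ha
    · rcases List.mem_append.1 hy with h | h <;> rcases List.mem_append.1 hz with h' | h'
      · exact (hmem y h).2 z h'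
      · rw [List.mem_singleton.1 h']; exact (hmem y h).1.2.2.symm
      · rw [List.mem_singleton.1 h]; exact (hmem z h').1.2.2
      · rw [List.mem_singleton.1 h, List.mem_singleton.1 h']
    · rw [zpow_add, zpow_mul, zpow_two, haa, one_zpow, one_mul, zpow_one] at hk
      rw [List.prod_append, List.prod_singleton]
      exact hk

/-- In a double cover every element over an element of order at most two has order at most two. -/
theorem lift_sq_one (hF : Fintype.card F = 4) (hC : Ctx D F) (h22 : Cfsg.IsOfTypeM22 G D) {H : Type*} [Group H]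
    {π : H →* G} {z : H} (hker : ∀ h, π h = 1 ↔ h = 1 ∨ h = z) (hzc : ∀ h, Commute z h) (hzz : z * z = 1)
    (hsur : Function.Surjective π) {y : H} (hy : π (y * y) = 1) : y * y = 1 := by
  have hG := H17.class_group hC.cls
  have hcen : ∀ k, π k = 1 → ∀ h, Commute k h := fun k hk h => by
    rcases (hker k).1 hk with rfl | rfl
    · exact Commute.one_left h
    · exact hzc h
  have hksq : ∀ k, π k = 1 → k * k = 1 := fun k hk => by
    rcases (hker k).1 hk with rfl | rfl
    · exact one_mul 1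
    · exact hzz
  have hdiff : ∀ {p q : H}, π p = π q → ∃ k, π k = 1 ∧ p = q * k := fun {p q} h =>
    ⟨q⁻¹ * p, by rw [map_mul, map_inv, h, inv_mul_cancel], by rw [mul_inv_cancel_left]⟩
  have hsqeq : ∀ {p q : H}, π p = π q → p * p = q * q := fun {p q} h => by
    obtain ⟨k, hk, rfl⟩ := hdiff h
    rw [(hcen k hk q).mul_mul_mul_comm, hksq k hk, mul_one]
  -- lifts of commuting members commute
  have hcomm : ∀ (A B : H), π A ∈ D → π B ∈ D → Commute (π A) (π B) → Commute A B := by
    intro A B hA hB hAB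
    by_cases he : π B = π A
    · obtain ⟨k, hk, rfl⟩ := hdiff he
      exact (Commute.refl A).mul_right (hcen k hk A).symm
    set U := (Subgroup.closure (Sset D (π A))).comap π with hU
    have hc : ∀ u ∈ U, ∃ k, π k = 1 ∧ u * A * u⁻¹ = A * k := fun u hu => by
      refine hdiff ?_
      have hca : Subgroup.closure (Sset D (π A)) ≤ Subgroup.centralizer {π A} :=
        (Subgroup.closure_le _).2 fun w hw => Subgroup.mem_centralizer_singleton_iff.2 hw.2.2.symm.eq
      rw [map_mul, map_mul, map_inv, Subgroup.mem_centralizer_singleton_iff.1 (hca hu), mul_inv_cancel_right]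
    have hle : ⁅U, U⁆ ≤ Subgroup.centralizer {A} := by
      rw [Subgroup.commutator_le]
      intro u hu v hv
      obtain ⟨k, hk, ek⟩ := hc u hu
      obtain ⟨l, hl, el⟩ := hc v hv
      have eu : u⁻¹ * A * u = A * k := by
        calc u⁻¹ * A * u = u⁻¹ * (A * k * k) * u := by rw [mul_assoc A, hksq k hk, mul_one]
          _ = u⁻¹ * (u * A * u⁻¹ * k) * u := by rw [ek]
          _ = A * (u⁻¹ * k * u) := by group
          _ = A * k := by rw [mul_assoc u⁻¹, (hcen k hk u).eq, inv_mul_cancel_left]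
      have ev : v⁻¹ * A * v = A * l := by
        calc v⁻¹ * A * v = v⁻¹ * (A * l * l) * v := by rw [mul_assoc A, hksq l hl, mul_one]
          _ = v⁻¹ * (v * A * v⁻¹ * l) * v := by rw [el]
          _ = A * (v⁻¹ * l * v) := by group
          _ = A * l := by rw [mul_assoc v⁻¹, (hcen l hl v).eq, inv_mul_cancel_left]
      rw [Subgroup.mem_centralizer_singleton_iff, ← mul_inv_eq_iff_eq_mul, commutatorElement_def]
      calc u * v * u⁻¹ * v⁻¹ * A * (u * v * u⁻¹ * v⁻¹)⁻¹
          = u * v * (u⁻¹ * (v⁻¹ * A * v) * u) * v⁻¹ * u⁻¹ := by group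
        _ = u * v * (u⁻¹ * A * (u * l)) * v⁻¹ * u⁻¹ := by rw [ev, ← (hcen l hl u).eq]; group
        _ = u * v * (A * k * l) * v⁻¹ * u⁻¹ := by rw [← mul_assoc (u⁻¹ * A) u l, eu]
        _ = u * (v * A * v⁻¹) * (v * (k * l) * v⁻¹) * u⁻¹ := by group
        _ = u * A * (l * (k * l)) * u⁻¹ := by
          rw [el, ← ((hcen k hk v).mul_left (hcen l hl v)).eq, mul_inv_cancel_right]; group
        _ = u * A * u⁻¹ * k := by
          rw [← (hcen k hk l).left_comm, hksq l hl, mul_one, mul_assoc, (hcen k hk u⁻¹).eq]; group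
        _ = A := by rw [ek, mul_assoc, hksq k hk, mul_one]
    have hp : Subgroup.closure (Sset D (π A)) = ⁅U, U⁆.map π := by
      rw [Subgroup.map_commutator, hU, Subgroup.map_comap_eq_self_of_surjective hsur,
        ← Subgroup.map_subtype_commutator, perfect_closure hF hC hA, ← MonoidHom.range_eq_map,
        Subgroup.range_subtype]
    obtain ⟨B', hB', hBB⟩ : π B ∈ ⁅U, U⁆.map π := hp ▸ Subgroup.subset_closure ⟨hB, he, hAB⟩
    obtain ⟨k, hk, rfl⟩ := hdiff hBB.symm
    have hc' : Commute A B' := (Subgroup.mem_centralizer_singleton_iff.1 (hle hB')).symm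
    exact hc'.mul_right (hcen k hk A).symm
  -- all members have lifts of one square
  obtain ⟨a, ha, x, w, hxS, hwS, hxc, hwc, hrel⟩ := exists_odd_relation hF hC
  obtain ⟨A, rfl⟩ := hsur a
  set s := A * A with hs
  have hs1 : π s = 1 := by rw [hs, map_mul, H17.sq_one hG.1 ha]
  have hsame : ∀ B, π B ∈ D → B * B = s := fun B hB => by
    obtain ⟨g, hg⟩ := H17.class_transitive hC.cls ha hB
    obtain ⟨g', rfl⟩ := hsur g
    rw [hsqeq (p := B) (q := g' * A * g'⁻¹) (by rw [map_mul, map_mul, map_inv, hg])]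
    calc g' * A * g'⁻¹ * (g' * A * g'⁻¹) = g' * s * g'⁻¹ := by rw [hs]; group
      _ = s := by rw [← (hcen s hs1 g').eq, mul_inv_cancel_right]
  choose X hX using fun k => hsur (x k)
  choose W hW using fun k => hsur (w k)
  have htri : ∀ (P : Fin 3 → H), (∀ k, π (P k) ∈ D) → (∀ k l, Commute (π (P k)) (π (P l))) →
      P 0 * P 1 * P 2 * (P 0 * P 1 * P 2) = s := fun P hP hPc => by
    have c : ∀ k l, Commute (P k) (P l) := fun k l => hcomm _ _ (hP k) (hP l) (hPc k l)
    rw [((c 2 0).mul_right (c 2 1)).mul_mul_mul_comm, (c 1 0).mul_mul_mul_comm, hsame _ (hP 0), hsame _ (hP 1),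
      hsame _ (hP 2), hksq s hs1, one_mul]
  have hS1 : s = 1 := by
    obtain ⟨k, hk, hkW⟩ := hdiff (p := W 0 * W 1 * W 2) (q := A * (X 0 * X 1 * X 2))
      (by simp only [map_mul, hW, hX]; exact hrel)
    have h1 := htri W (fun k => by rw [hW]; exact (hwS k).1) fun k l => by rw [hW, hW]; exact hwc k l
    have h2 := htri X (fun k => by rw [hX]; exact (hxS k).1) fun k l => by rw [hX, hX]; exact hxc k l
    have cA : ∀ l, Commute A (X l) := fun l => hcomm _ _ ha (by rw [hX]; exact (hxS l).1)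
      (by rw [hX]; exact (hxS l).2.2)
    rw [hkW, (hcen k hk _).mul_mul_mul_comm, hksq k hk, mul_one,
      (((cA 0).mul_right (cA 1)).mul_right (cA 2)).symm.mul_mul_mul_comm, h2] at h1
    exact mul_right_cancel (h1.trans (one_mul s).symm)
  -- all involutions
  obtain ⟨l, hl, hlc, hlp⟩ := involution_prod hF hC h22 (x := π y) (by rw [← map_mul, hy])
  choose up hup using hsur
  have key : ∀ l' : List G, (∀ p ∈ l', p ∈ l) → (l'.map up).prod * (l'.map up).prod = 1 := by
    intro l'
    induction l' with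
    | nil => intro _; simp
    | cons p r ih =>
      intro h
      have hp := h p (List.mem_cons_self ..)
      have hc : Commute (up p) (r.map up).prod := Commute.list_prod_right _ _ fun q hq => by
        obtain ⟨q', hq', rfl⟩ := List.mem_map.1 hq
        have hql := h q' (List.mem_cons_of_mem _ hq')
        exact hcomm _ _ (by rw [hup]; exact hl p hp) (by rw [hup]; exact hl _ hql)
          (by rw [hup, hup]; exact hlc p hp _ hql)
      rw [List.map_cons, List.prod_cons, hc.symm.mul_mul_mul_comm, hsame _ (by rw [hup]; exact hl p hp), hS1,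
        ih fun q hq => h q (List.mem_cons_of_mem _ hq), one_mul]
  rw [hsqeq (p := y) (q := (l.map up).prod) (by
    rw [map_list_prod, List.map_map, show ⇑π ∘ up = id from funext hup, List.map_id, hlp])]
  exact key l fun p hp => hp

omit [Field F] [Fintype F] [DecidableEq F] in
/-- A class of type M(22) of a quasisimple group is primitive. -/
theorem primitive_of_quasisimple (hq : Cfsg.IsQuasisimple G) (hD : Cfsg.IsThreeTranspositionClass D)
    (h22 : Cfsg.IsOfTypeM22 G D) : Cfsg.IsPrimitiveUnderConj D := by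
  obtain ⟨hZ, d, hd, c, hc, hdc, -⟩ := id h22
  obtain ⟨h2, h3⟩ := H53.cores_of_local hD (H53.m22_local (H17.class_group hD) h22)
  refine H17.primitive_of_component hD ⟨d, hd, c, hc, fun e => hdc (e ▸ Commute.refl d)⟩ (L := ⊤) ⟨?_, ?_⟩ h2 h3
    fun _ _ _ _ => Subgroup.mem_top _
  · exact Subgroup.Normal.isSubnormal inferInstance
  · exact H51.quasisimple_of_equiv hq Subgroup.topEquiv.symm

end Cfsg.Agent.H98.M22L
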