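import Cfsg.Agent.H98.MaximalBase
import Cfsg.Agent.H2.Generation
import Cfsg.Prelude.Def_ClassicalGeometry

set_option autoImplicit false

/-!
Stabilisers of totally singular and of non-degenerate subspaces are maximal in the symplectic group.
-/

namespace Cfsg.Agent.H98

open scoped Matrix

variable {m : ℕ} {F : Type*} [Field F]

local notation "V" => (Fin m ⊕ Fin m → F)
local notation "Mat" => Matrix (Fin m ⊕ Fin m) (Fin m ⊕ Fin m) F
local notation "β" => Cfsg.Agent.H2.sympBilin m F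

theorem mem_spGL {g : GL (Fin m ⊕ Fin m) F} :
    g ∈ Cfsg.spGL m F ↔ ∀ u v : V, β ((g : Mat) *ᵥ u) ((g : Mat) *ᵥ v) = β u v := by
  simp only [Cfsg.Agent.H2.sympBilin_apply]
  exact Iff.rfl

theorem beta_self (v : V) : β v v = 0 := (Cfsg.Agent.H2.sympBilin_isAlt m F) v

theorem beta_swap (u v : V) : β v u = - β u v := by
  simp only [Cfsg.Agent.H2.sympBilin_apply]; exact Cfsg.Agent.H2.sympForm_swap u v

/-- Symplectic transvection as an element of `GL`. -/
def spTrans (v : V) (c : F) : GL (Fin m ⊕ Fin m) F :=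
  transGL (c • (β).flip v) v (by simp)

theorem spTrans_mulVec (v x : V) (c : F) :
    (spTrans v c : Mat) *ᵥ x = x + (c * β x v) • v := by
  simp [spTrans]

theorem spTrans_mem (v : V) (c : F) : spTrans v c ∈ Cfsg.spGL m F := by
  rw [mem_spGL]
  intro x y
  simp only [spTrans_mulVec, map_add, map_smul, LinearMap.add_apply, LinearMap.smul_apply, smul_eq_mul,
    beta_self, beta_swap y v]
  ring

theorem conj_spTrans {g : GL (Fin m ⊕ Fin m) F} (hg : g ∈ Cfsg.spGL m F) (v : V) (c : F) :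
    g * spTrans v c * g⁻¹ = spTrans ((g : Mat) *ᵥ v) c := by
  refine gl_ext fun x => ?_
  simp only [Units.val_mul, ← Matrix.mulVec_mulVec, spTrans_mulVec, Matrix.mulVec_add, Matrix.mulVec_smul,
    gl_mulVec_inv]
  have := mem_spGL.mp hg (((g⁻¹ : GL (Fin m ⊕ Fin m) F) : Mat) *ᵥ x) v
  rw [gl_mulVec_inv] at this
  rw [this]

theorem spTrans_smul (v : V) (a c : F) : spTrans (a • v) c = spTrans v (a * a * c) := by
  refine gl_ext fun x => ?_
  simp only [spTrans_mulVec, map_smul, smul_eq_mul, smul_smul]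
  ring_nf

theorem spTrans_zero_vec (c : F) : spTrans (0 : V) c = 1 :=
  gl_ext fun x => by simp [spTrans_mulVec]

/-- A subgroup with all symplectic transvections contains the symplectic group. -/
theorem spGL_le_of_spTrans (M : Subgroup (GL (Fin m ⊕ Fin m) F))
    (h : ∀ (v : V) (c : F), spTrans v c ∈ M) : Cfsg.spGL m F ≤ M := by
  intro g hg
  let S : Subgroup (Matrix.symplecticGroup (Fin m) F) :=
    { carrier := {A | ∃ g ∈ M, (g : Mat) = (A : Mat)}
      mul_mem' := fun {a b} ⟨x, hx, ex⟩ ⟨y, hy, ey⟩ => ⟨x * y, M.mul_mem hx hy, by simp [ex, ey]⟩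
      one_mem' := ⟨1, M.one_mem, rfl⟩
      inv_mem' := fun {a} ⟨x, hx, ex⟩ => ⟨x⁻¹, M.inv_mem hx, by
        calc ((x⁻¹ : GL (Fin m ⊕ Fin m) F) : Mat)
            = ((x⁻¹ : GL (Fin m ⊕ Fin m) F) : Mat) * ((a : Mat) * (↑(a⁻¹) : Mat)) := by
              rw [← Submonoid.coe_mul, mul_inv_cancel, Submonoid.coe_one, mul_one]
          _ = _ := by rw [← mul_assoc, ← ex, ← Units.val_mul, inv_mul_cancel, Units.val_one, one_mul]⟩ }
  have htop : S = ⊤ := by
    rw [eq_top_iff, ← Cfsg.Agent.H2.closure_transv_eq_top, Subgroup.closure_le]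
    rintro _ ⟨v, c, rfl⟩
    exact ⟨spTrans v c, h v c, Matrix.ext_of_mulVec_single fun i => by
      rw [spTrans_mulVec, Cfsg.Agent.H2.coe_transv, Cfsg.Agent.H2.sympTransvection_mulVec,
        Cfsg.Agent.H2.sympBilin_apply]⟩
  obtain ⟨x, hx, ex⟩ := htop.ge (Subgroup.mem_top (G := Matrix.symplecticGroup (Fin m) F)
    (⟨(g : Mat), Cfsg.Agent.H2.mem_symplecticGroup_iff.mpr hg⟩ : Matrix.symplecticGroup (Fin m) F))
  exact (Units.ext ex : x = g) ▸ hx

/-- The subspace orthogonal to `W`. -/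
def spPerp (W : Submodule F V) : Submodule F V where
  carrier := {v | ∀ w ∈ W, β w v = 0}
  add_mem' := fun {a b} ha hb w hw => by rw [map_add, ha w hw, hb w hw, add_zero]
  zero_mem' := fun w _ => map_zero _
  smul_mem' := fun c x hx w hw => by rw [map_smul, hx w hw, smul_zero]

theorem spPerp_eq_orthogonal (W : Submodule F V) : spPerp W = (β).orthogonal W := rfl

theorem spPerp_spPerp (W : Submodule F V) : spPerp (spPerp W) = W := by
  rw [spPerp_eq_orthogonal, spPerp_eq_orthogonal]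
  exact LinearMap.BilinForm.orthogonal_orthogonal (Cfsg.Agent.H2.sympBilin_nondegenerate m F)
    (Cfsg.Agent.H2.sympBilin_isAlt m F).isRefl W

/-- An isometry mapping the orthogonal space into itself stabilises `W`. -/
theorem stab_of_stab_perp {W : Submodule F V} {g : GL (Fin m ⊕ Fin m) F} (hg : g ∈ Cfsg.spGL m F)
    (h : ∀ u ∈ spPerp W, (g : Mat) *ᵥ u ∈ spPerp W) : g ∈ Cfsg.Geo.subspaceStabilizer W := by
  refine stab_of_maps_into fun w hw => ?_
  rw [← spPerp_spPerp W] at hw ⊢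
  intro u hu
  have hu' : ((g⁻¹ : GL (Fin m ⊕ Fin m) F) : Mat) *ᵥ u ∈ spPerp W :=
    ((mem_subspaceStabilizer.mp (stab_of_maps_into h)) _).mpr (by rwa [gl_mulVec_inv])
  rw [← gl_mulVec_inv g u, mem_spGL.mp hg]
  exact hw _ hu'

/-- Transvections with centre orthogonal to `W` or in `W` stabilise `W`. -/
theorem spTrans_stab {W : Submodule F V} {v : V} (hv : v ∈ W ∨ v ∈ spPerp W) (c : F) :
    spTrans v c ∈ Cfsg.Geo.subspaceStabilizer W ⊓ Cfsg.spGL m F := by
  refine ⟨stab_of_maps_into fun w hw => ?_, spTrans_mem v c⟩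
  rw [spTrans_mulVec]
  rcases hv with hv | hv
  · exact W.add_mem hw (W.smul_mem _ hv)
  · rw [hv w hw, mul_zero, zero_smul, add_zero]; exact hw

theorem exists_pair_ne {U : Submodule F V} {u v : V} (hu : u ∉ spPerp U) (hv : v ∉ spPerp U) :
    ∃ z ∈ U, β z u ≠ 0 ∧ β z v ≠ 0 := by
  obtain ⟨a, ha, hau⟩ : ∃ a ∈ U, β a u ≠ 0 := by by_contra h; push Not at h; exact hu h
  obtain ⟨b, hb, hbv⟩ : ∃ b ∈ U, β b v ≠ 0 := by by_contra h; push Not at h; exact hv h
  by_cases hav : β a v = 0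
  · by_cases hbu : β b u = 0
    · exact ⟨a + b, U.add_mem ha hb, by simpa [hbu] using hau, by simpa [hav] using hbv⟩
    · exact ⟨b, hb, hbu, hbv⟩
  · exact ⟨a, ha, hau, hav⟩

/-- Stabilisers of totally singular subspaces are maximal in the symplectic group. -/
theorem sp_stab_ts_maximal (W : Submodule F V) (hW0 : W ≠ ⊥)
    (hW : ∀ u ∈ W, ∀ v ∈ W, β u v = 0) :
    Cfsg.Geo.IsMaximalIn (Cfsg.spGL m F) (Cfsg.Geo.subspaceStabilizer W ⊓ Cfsg.spGL m F) := by
  have hWle : W ≤ spPerp W := fun v hv w hw => hW w hw v hv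
  obtain ⟨w₀, hw₀, hw₀0⟩ := Submodule.exists_mem_ne_zero_of_ne_bot hW0
  obtain ⟨e, he⟩ : ∃ e : V, β w₀ e ≠ 0 := by
    by_contra h; push Not at h
    exact hw₀0 ((Cfsg.Agent.H2.sympBilin_nondegenerate m F).1 w₀ h)
  have heW : e ∉ spPerp W := fun h => he (h w₀ hw₀)
  refine isMaximalIn_of inf_le_right ⟨spTrans e 1, spTrans_mem e 1, fun h => ?_⟩ ?_
  · have := (mem_subspaceStabilizer.mp h.1 w₀).mp hw₀
    rw [spTrans_mulVec, one_mul] at this
    have h2 := W.smul_mem (β w₀ e)⁻¹ (by simpa using W.sub_mem this hw₀ : β w₀ e • e ∈ W)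
    rw [smul_smul, inv_mul_cancel₀ he, one_smul] at h2
    exact heW (hWle h2)
  intro M hHM hMK g hg hgH
  let C : Set V := {v | ∀ c, spTrans v c ∈ M}
  have hCP : ∀ v ∈ spPerp W, v ∈ C := fun v hv c => hHM (spTrans_stab (Or.inr hv) c)
  have hCconj : ∀ h ∈ M, ∀ v ∈ C, (h : Mat) *ᵥ v ∈ C := by
    intro h hh v hv c
    rw [← conj_spTrans (hMK hh)]
    exact M.mul_mem (M.mul_mem hh (hv c)) (M.inv_mem hh)
  obtain ⟨p, hp, hu⟩ : ∃ p ∈ spPerp W, (g : Mat) *ᵥ p ∉ spPerp W := by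
    by_contra hc; push Not at hc
    exact hgH ⟨stab_of_stab_perp (hMK hg) hc, hMK hg⟩
  set u := (g : Mat) *ᵥ p
  have huC : u ∈ C := hCconj g hg p (hCP p hp)
  refine spGL_le_of_spTrans M fun v c => (show v ∈ C from ?_) c
  by_cases hv : v ∈ spPerp W
  · exact hCP v hv
  obtain ⟨z, hz, hzu, hzv⟩ := exists_pair_ne hu hv
  set v' := (β z u / β z v) • v with hv'
  have hzx : β z (v' - u) = 0 := by
    rw [map_sub, hv', map_smul, smul_eq_mul, div_mul_cancel₀ _ hzv, sub_self]
  set x := v' - u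
  set α := (β u z)⁻¹ with hα
  have huz : β u z ≠ 0 := by rw [beta_swap z u]; exact neg_ne_zero.mpr hzu
  set γ := -α * β u x * α with hγ
  set h := spTrans (x + z) α * spTrans x (-α) * spTrans z (-α + γ) with hh
  have happ : ∀ y, (h : Mat) *ᵥ y =
      y + α • (β y z • x + β y x • z) + (γ * β y z) • z := by
    intro y
    simp only [hh, Units.val_mul, ← Matrix.mulVec_mulVec, spTrans_mulVec, map_add, map_smul, LinearMap.add_apply,
      LinearMap.smul_apply, smul_eq_mul, beta_self, hzx, beta_swap z x, neg_zero, mul_zero, add_zero, smul_add]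
    module
  have hhM : h ∈ M := by
    refine hHM ⟨stab_of_maps_into fun w hw => ?_,
      mul_mem (mul_mem (spTrans_mem _ _) (spTrans_mem _ _)) (spTrans_mem _ _)⟩
    rw [happ, hW w hw z hz, zero_smul, zero_add, mul_zero, zero_smul, add_zero]
    exact W.add_mem hw (W.smul_mem _ (W.smul_mem _ hz))
  have hC' : v' ∈ C := by
    have := hCconj h hhM u huC
    rw [happ] at this
    convert this using 1
    have e1 : u + x = v' := by simp [x]
    rw [hγ, hα, smul_add, smul_smul, smul_smul, inv_mul_cancel₀ huz, one_smul, ← e1]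
    match_scalars
    · rfl
    · ring
    · field_simp; ring
  intro c
  have hc0 : (β z u / β z v) ≠ 0 := div_ne_zero hzu hzv
  have := hC' (c / ((β z u / β z v) * (β z u / β z v)))
  rwa [hv', spTrans_smul, mul_div_cancel₀ _ (mul_ne_zero hc0 hc0)] at this

/-- A transvection with centre in `U` carrying one vector of `U` to another. -/
theorem spTrans_move {a b : V} (hab : β a b ≠ 0) :
    (spTrans (b - a) (β a b)⁻¹ : Mat) *ᵥ a = b := by
  rw [spTrans_mulVec, map_sub, beta_self, sub_zero, inv_mul_cancel₀ hab, one_smul, add_sub_cancel]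

/-- Stabilisers of non-degenerate subspaces are maximal in the symplectic group. -/
theorem sp_stab_nd_maximal (W : Submodule F V) (hW0 : W ≠ ⊥)
    (hW : ∀ u ∈ W, u ∈ spPerp W → u = 0) (hdim : Module.finrank F W < m) :
    Cfsg.Geo.IsMaximalIn (Cfsg.spGL m F) (Cfsg.Geo.subspaceStabilizer W ⊓ Cfsg.spGL m F) := by
  have hdisj : Disjoint W (spPerp W) := Submodule.disjoint_def.mpr hW
  have hrefl := (Cfsg.Agent.H2.sympBilin_isAlt m F).isRefl
  have hcompl : IsCompl W (spPerp W) := by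
    rw [spPerp_eq_orthogonal] at hdisj ⊢
    exact LinearMap.BilinForm.isCompl_orthogonal_of_restrict_nondegenerate hrefl
      ((LinearMap.IsRefl.nondegenerate_iff_separatingLeft (B := (β).restrict W)
        (fun x y h => hrefl (x : V) (y : V) h)).mpr fun x hx =>
        Subtype.ext (hW (x : V) x.2 (fun w hw => hrefl _ _ (hx ⟨w, hw⟩))))
  have hdim' : Module.finrank F W + Module.finrank F (spPerp W) = 2 * m := by
    rw [Submodule.finrank_add_eq_of_isCompl hcompl, Module.finrank_pi]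
    simp [two_mul]
  have hperp0 : spPerp W ≠ ⊥ := by
    intro h; rw [h, finrank_bot] at hdim'; omega
  have hdecomp : ∀ v : V, ∃ a ∈ W, ∃ b ∈ spPerp W, v = a + b := fun v => by
    obtain ⟨a, ha, b, hb, he⟩ := Submodule.mem_sup.mp (hcompl.sup_eq_top.ge (Submodule.mem_top (x := v)))
    exact ⟨a, ha, b, hb, he.symm⟩
  have hnW : ∀ a ∈ W, a ≠ 0 → a ∉ spPerp W := fun a ha h0 h => h0 (hW a ha h)
  have hnP : ∀ b ∈ spPerp W, b ≠ 0 → b ∉ spPerp (spPerp W) := fun b hb h0 h => by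
    rw [spPerp_spPerp] at h; exact h0 (hW b h hb)
  refine isMaximalIn_of inf_le_right ?_ ?_
  · obtain ⟨a, ha, ha0⟩ := Submodule.exists_mem_ne_zero_of_ne_bot hW0
    obtain ⟨b, hb, hb0⟩ := Submodule.exists_mem_ne_zero_of_ne_bot hperp0
    obtain ⟨w, hw, hwa⟩ : ∃ w ∈ W, β w a ≠ 0 := by
      by_contra h; push Not at h; exact hnW a ha ha0 h
    refine ⟨spTrans (a + b) 1, spTrans_mem _ _, fun h => ?_⟩
    have := (mem_subspaceStabilizer.mp h.1 w).mp hw
    rw [spTrans_mulVec, one_mul, map_add, hb w hw, add_zero] at this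
    have h2 := W.smul_mem (β w a)⁻¹ (by simpa using W.sub_mem this hw : β w a • (a + b) ∈ W)
    rw [smul_smul, inv_mul_cancel₀ hwa, one_smul] at h2
    exact hb0 (hW b (by simpa using W.sub_mem h2 ha) hb)
  intro M hHM hMK g hg hgH
  let C : Set V := {v | ∀ c, spTrans v c ∈ M}
  have hCW : ∀ v, (v ∈ W ∨ v ∈ spPerp W) → v ∈ C := fun v hv c => hHM (spTrans_stab hv c)
  have hCconj : ∀ h ∈ M, ∀ v ∈ C, (h : Mat) *ᵥ v ∈ C := by
    intro h hh v hv c
    rw [← conj_spTrans (hMK hh)]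
    exact M.mul_mem (M.mul_mem hh (hv c)) (M.inv_mem hh)
  -- a mixed vector in `C`
  obtain ⟨u, huC, huW, huP⟩ : ∃ u ∈ C, u ∉ W ∧ u ∉ spPerp W := by
    by_contra hc
    push Not at hc
    let L := Matrix.mulVecLin (g : Matrix (Fin m ⊕ Fin m) (Fin m ⊕ Fin m) F)
    have hinj : Function.Injective L := gl_mulVec_injective g
    have hin : ∀ U : Submodule F V, (∀ v ∈ U, v ∈ C) → U.map L ≤ W ∨ U.map L ≤ spPerp W := by
      intro U hU
      have hmem : ∀ x ∈ U.map L, x ∈ W ∨ x ∈ spPerp W := by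
        rintro _ ⟨v, hv, rfl⟩
        exact or_iff_not_imp_left.mpr fun h => hc _ (hCconj g hg v (hU v hv)) h
      by_contra h
      push Not at h
      obtain ⟨x, hx, hxW⟩ := SetLike.not_le_iff_exists.mp h.1
      obtain ⟨y, hy, hyP⟩ := SetLike.not_le_iff_exists.mp h.2
      have hxP := (hmem x hx).resolve_left hxW
      have hyW := (hmem y hy).resolve_right hyP
      rcases hmem (x + y) (add_mem hx hy) with h' | h'
      · exact hxW (by simpa using W.sub_mem h' hyW)
      · exact hyP (by simpa using (spPerp W).sub_mem h' hxP)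
    rcases hin (spPerp W) (fun v hv => hCW v (Or.inr hv)) with h' | h'
    · have := Submodule.finrank_mono h'
      rw [← (Submodule.equivMapOfInjective L hinj _).finrank_eq] at this
      omega
    · exact hgH ⟨stab_of_stab_perp (hMK hg) fun v hv => h' ⟨v, hv, rfl⟩, hMK hg⟩
  -- moving the two components independently
  have hmove : ∀ (U U' : Submodule F V), (∀ a ∈ U, ∀ b ∈ U', β b a = 0) →
      (∀ d ∈ U, ∀ c, spTrans d c ∈ M) → (∀ a ∈ U, a ≠ 0 → a ∉ spPerp U) →
      ∀ a ∈ U, ∀ a' ∈ U, ∀ b ∈ U', a ≠ 0 → a' ≠ 0 → a + b ∈ C → a' + b ∈ C := by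
    intro U U' horth hUM hnd
    have step : ∀ a ∈ U, ∀ a' ∈ U, ∀ b ∈ U', β a a' ≠ 0 → a + b ∈ C → a' + b ∈ C := by
      intro a ha a' ha' b hb hne hC
      have := hCconj _ (hUM _ (U.sub_mem ha' ha) (β a a')⁻¹) _ hC
      rwa [Matrix.mulVec_add, spTrans_move hne, spTrans_mulVec (a' - a) b,
        horth _ (U.sub_mem ha' ha) b hb, mul_zero, zero_smul, add_zero] at this
    intro a ha a' ha' b hb h0 h0' hC
    obtain ⟨c, hc, hc1, hc2⟩ := exists_pair_ne (hnd a ha h0) (hnd a' ha' h0')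
    exact step c hc a' ha' b hb hc2 (step a ha c hc b hb (by rw [beta_swap c a]; exact neg_ne_zero.mpr hc1) hC)
  refine spGL_le_of_spTrans M fun v c => (show v ∈ C from ?_) c
  obtain ⟨a, ha, b, hb, rfl⟩ := hdecomp u
  obtain ⟨a', ha', b', hb', rfl⟩ := hdecomp v
  have ha0 : a ≠ 0 := fun h => huP (by simpa [h] using hb)
  have hb0 : b ≠ 0 := fun h => huW (by simpa [h] using ha)
  by_cases ha'0 : a' = 0
  · exact hCW _ (Or.inr (by simpa [ha'0] using hb'))
  by_cases hb'0 : b' = 0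
  · exact hCW _ (Or.inl (by simpa [hb'0] using ha'))
  have h1 := hmove W (spPerp W) (fun x hx y hy => hrefl _ _ (hy x hx))
    (fun d hd c => hHM (spTrans_stab (Or.inl hd) c)) hnW a ha a' ha' b hb ha0 ha'0 huC
  rw [add_comm] at h1 ⊢
  exact hmove (spPerp W) W (fun x hx y hy => hx y hy)
    (fun d hd c => hHM (spTrans_stab (Or.inr hd) c)) hnP b hb b' hb' a' ha' hb0 hb'0 h1

end Cfsg.Agent.H98
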