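import Cfsg.Prelude.Def_GeometricClasses
import Cfsg.Agent.H4.WittExt

set_option autoImplicit false

/-!
Quadratic forms given as functions, bundled, and Witt transitivity for them inside `GL`.
-/

namespace Cfsg.Agent.H98

variable {ι : Type} [Fintype ι] [DecidableEq ι] {F : Type*} [Field F]

/-- The bundled quadratic form of a function satisfying `IsNondegenerateQuadraticForm`. -/
def qOfFun (Q : (ι → F) → F) (hQ : Cfsg.Geo.IsNondegenerateQuadraticForm Q) : QuadraticForm F (ι → F) :=
  QuadraticMap.ofPolar Q (fun a x => by rw [hQ.smul, pow_two, smul_eq_mul])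
    (fun x x' y => hQ.polar_bilinear.add_left x x' y) (fun a x y => hQ.polar_bilinear.smul_left a x y)

@[simp] theorem qOfFun_apply {Q : (ι → F) → F} (hQ : Cfsg.Geo.IsNondegenerateQuadraticForm Q) (v : ι → F) :
    qOfFun Q hQ v = Q v := rfl

theorem coe_qOfFun {Q : (ι → F) → F} (hQ : Cfsg.Geo.IsNondegenerateQuadraticForm Q) :
    ⇑(qOfFun Q hQ) = Q := rfl

theorem qOfFun_nondeg {Q : (ι → F) → F} (hQ : Cfsg.Geo.IsNondegenerateQuadraticForm Q) :
    (QuadraticMap.polarBilin (qOfFun Q hQ)).Nondegenerate := by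
  refine ⟨fun x h => ?_, fun y h => ?_⟩
  · by_contra hx
    obtain ⟨-, z, hz⟩ := hQ.nondegenerate x hx
    exact hz (by simpa [coe_qOfFun] using h z)
  · by_contra hy
    obtain ⟨⟨z, hz⟩, -⟩ := hQ.nondegenerate y hy
    exact hz (by simpa [coe_qOfFun] using h z)

end Cfsg.Agent.H98
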