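import Cfsg.Agent.H98.MaximalBase
import Cfsg.Prelude.Def_GeometricClasses

set_option autoImplicit false

/-!
Elementary geometry of a non-degenerate unitary form over a finite field with respect to an arbitrary involutive
automorphism: norm and trace are surjective, isotropic vectors, hyperbolic pairs, transvections.
-/

namespace Cfsg.Agent.H98.Herm

open scoped Matrix

variable {ι : Type} [Fintype ι] [DecidableEq ι] {F : Type*} [Field F]
variable {σ : F ≃+* F} {f : (ι → F) → (ι → F) → F} (hf : Cfsg.Geo.IsUnitaryForm σ f)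

include hf

theorem sigma_apply (v w : ι → F) : σ (f v w) = f w v := (hf.herm w v).symm

theorem add_right (v x y : ι → F) : f v (x + y) = f v x + f v y := by
  rw [hf.herm, hf.add_left, map_add, sigma_apply hf, sigma_apply hf]

theorem smul_right (c : F) (v x : ι → F) : f v (c • x) = σ c * f v x := by
  rw [hf.herm, hf.smul_left, map_mul, sigma_apply hf]

theorem zero_left (v : ι → F) : f 0 v = 0 := by
  have := hf.smul_left 0 0 v
  rwa [zero_smul, zero_mul] at this

theorem zero_right (v : ι → F) : f v 0 = 0 := by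
  have := smul_right hf 0 v 0
  rwa [zero_smul, map_zero, zero_mul] at this

theorem neg_left (x v : ι → F) : f (-x) v = - f x v := by
  rw [← neg_one_smul F x, hf.smul_left, neg_one_mul]

theorem neg_right (v x : ι → F) : f v (-x) = - f v x := by
  rw [← neg_one_smul F x, smul_right hf, map_neg, map_one, neg_one_mul]

theorem sub_left (x y v : ι → F) : f (x - y) v = f x v - f y v := by
  rw [sub_eq_add_neg, hf.add_left, neg_left hf, ← sub_eq_add_neg]

theorem sub_right (v x y : ι → F) : f v (x - y) = f v x - f v y := by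
  rw [sub_eq_add_neg, add_right hf, neg_right hf, ← sub_eq_add_neg]

theorem eq_zero_comm {v w : ι → F} : f v w = 0 ↔ f w v = 0 := by
  constructor <;> intro h <;> rw [hf.herm, h, map_zero]

/-- The functional `x ↦ f x v`. -/
def fl (v : ι → F) : (ι → F) →ₗ[F] F where
  toFun x := f x v
  map_add' x y := hf.add_left x y v
  map_smul' c x := hf.smul_left c x v

theorem fl_apply (v x : ι → F) : fl hf v x = f x v := rfl

theorem fl_add (v w : ι → F) : fl hf (v + w) = fl hf v + fl hf w :=
  LinearMap.ext fun x => add_right hf x v w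

theorem fl_smul (c : F) (v : ι → F) : fl hf (c • v) = σ c • fl hf v :=
  LinearMap.ext fun x => smul_right hf c x v

theorem fl_injective : Function.Injective (fl hf) := by
  intro v w h
  by_contra hne
  obtain ⟨x, hx⟩ := (hf.nondegenerate _ (sub_ne_zero.mpr hne)).1
  rw [sub_right hf, sub_ne_zero] at hx
  exact hx (LinearMap.congr_fun h x)

theorem fl_surjective [Finite F] : Function.Surjective (fl hf) := by
  intro φ
  let e := (Pi.basisFun F ι).toDualEquiv
  obtain ⟨v, hv⟩ := Finite.injective_iff_surjective.mp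
    (show Function.Injective (fun v => e.symm (fl hf v)) from e.symm.injective.comp (fl_injective hf)) (e.symm φ)
  exact ⟨v, e.symm.injective hv⟩

/-- Every fixed element is a trace. -/
theorem exists_trace {a : F} (ha : σ a = a) : ∃ x, x + σ x = a := by
  obtain ⟨z, hz⟩ : ∃ z, z + σ z ≠ 0 := by
    by_contra h
    push Not at h
    refine hf.ne_refl (RingEquiv.ext fun x => ?_)
    have h1 := h 1
    rw [map_one] at h1
    rw [RingEquiv.refl_apply, ← sub_eq_zero]
    linear_combination h x - x * h1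
  refine ⟨a / (z + σ z) * z, ?_⟩
  rw [map_mul, map_div₀, map_add, hf.involutive, ha, add_comm (σ z) z, ← mul_add, div_mul_cancel₀ _ hz]

theorem exists_skew : ∃ ζ : F, ζ ≠ 0 ∧ σ ζ = -ζ := by
  obtain ⟨z, hz⟩ : ∃ z, σ z ≠ z := by
    by_contra h
    push Not at h
    exact hf.ne_refl (RingEquiv.ext fun x => by rw [h x, RingEquiv.refl_apply])
  exact ⟨z - σ z, sub_ne_zero.mpr (Ne.symm hz), by rw [map_sub, hf.involutive, neg_sub]⟩

/-- Every fixed element is a norm. -/
theorem exists_norm [Finite F] {a : F} (ha : σ a = a) : ∃ x, x * σ x = a := by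
  rcases eq_or_ne a 0 with rfl | ha0
  · exact ⟨0, zero_mul _⟩
  let s : Fˣ →* Fˣ := Units.map (σ : F →+* F).toMonoidHom
  have hs : ∀ x : Fˣ, ((s x : Fˣ) : F) = σ (x : F) := fun _ => rfl
  let N : Fˣ →* Fˣ := MonoidHom.id Fˣ * s
  let φ : Fˣ →* Fˣ := MonoidHom.id Fˣ / s
  have hN : ∀ x : Fˣ, ((N x : Fˣ) : F) = (x : F) * σ x := fun _ => rfl
  have hφ : ∀ x : Fˣ, φ x = 1 ↔ σ (x : F) = x := fun x => by
    rw [MonoidHom.div_apply, MonoidHom.id_apply, div_eq_one, Units.ext_iff, hs, eq_comm]
  have h90 : N.ker ≤ φ.range := by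
    intro x hx
    have hx' : (x : F) * σ x = 1 := by rw [← hN, MonoidHom.mem_ker.mp hx, Units.val_one]
    obtain ⟨y, hy, hxy⟩ : ∃ y : F, y ≠ 0 ∧ σ y * x = y := by
      by_cases h : (x : F) = -1
      · obtain ⟨ζ, hζ, hζ'⟩ := exists_skew hf
        exact ⟨ζ, hζ, by rw [hζ', h]; ring⟩
      · exact ⟨1 + x, fun h0 => h (by linear_combination h0), by rw [map_add, map_one]; linear_combination hx'⟩
    refine ⟨Units.mk0 y hy, Units.ext ?_⟩
    rw [MonoidHom.div_apply, MonoidHom.id_apply, Units.val_div_eq_div_val, hs, Units.val_mk0,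
      div_eq_iff (by simpa using hy : σ y ≠ 0), mul_comm, hxy]
  have hr : N.range ≤ φ.ker := by
    rintro _ ⟨x, rfl⟩
    rw [MonoidHom.mem_ker, hφ, hN, map_mul, hf.involutive, mul_comm]
  have hle : Nat.card φ.ker ≤ Nat.card N.range := by
    have h1 := Subgroup.card_mul_index N.ker
    have h2 := Subgroup.card_mul_index φ.ker
    rw [Subgroup.index_ker] at h1 h2
    have h3 := Nat.card_mono (Set.toFinite _) (SetLike.coe_subset_coe.mpr h90)
    by_contra hlt
    push Not at hlt
    have h4 : Nat.card N.ker * Nat.card N.range < Nat.card φ.range * Nat.card φ.ker :=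
      calc Nat.card N.ker * Nat.card N.range ≤ Nat.card φ.range * Nat.card N.range := Nat.mul_le_mul_right _ h3
        _ < _ := Nat.mul_lt_mul_of_pos_left hlt Nat.card_pos
    rw [h1, mul_comm, h2] at h4
    omega
  have heq := Subgroup.eq_of_le_of_card_ge hr hle
  obtain ⟨x, hx⟩ := heq.ge (show Units.mk0 a ha0 ∈ φ.ker from (hφ _).mpr (by simpa using ha))
  exact ⟨x, by rw [← hN, hx, Units.val_mk0]⟩

/-- A totally isotropic subspace has at most half the dimension. -/
theorem ti_bound (W : Submodule F (ι → F)) (hW : ∀ u ∈ W, ∀ v ∈ W, f u v = 0) :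
    2 * Module.finrank F W ≤ Fintype.card ι := by
  obtain ⟨C, hC⟩ := Submodule.exists_isCompl W
  let b := Module.finBasis F C
  let L : W →ₗ[F] (Fin (Module.finrank F C) → F) := LinearMap.pi fun i => (fl hf (b i : ι → F)).comp W.subtype
  have hL : Function.Injective L := by
    rw [injective_iff_map_eq_zero]
    intro u hu
    by_contra hne
    obtain ⟨x, hx⟩ := (hf.nondegenerate (u : ι → F) (fun h => hne (Subtype.ext h))).1
    have hker : ∀ y : C, f (y : ι → F) u = 0 := by
      intro y
      rw [eq_zero_comm hf, ← fl_apply hf]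
      rw [← b.sum_repr y]
      simp only [Submodule.coe_sum, Submodule.coe_smul, fl_apply]
      rw [eq_zero_comm hf, ← fl_apply hf, map_sum]
      refine Finset.sum_eq_zero fun i _ => ?_
      rw [map_smul, fl_apply, (eq_zero_comm hf).mp (show f (u : ι → F) (b i) = 0 from congrFun hu i), smul_zero]
    obtain ⟨w, hw, c, hc, rfl⟩ := Submodule.mem_sup.mp (hC.sup_eq_top.ge (Submodule.mem_top (x := x)))
    rw [hf.add_left, hW w hw u u.2, hker ⟨c, hc⟩, add_zero] at hx
    exact hx rfl
  have h1 := LinearMap.finrank_le_finrank_of_injective hL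
  have h2 := Submodule.finrank_add_eq_of_isCompl hC
  rw [Module.finrank_pi] at h1 h2
  rw [Fintype.card_fin] at h1
  omega

/-- An isotropic vector off the radical of `U` extends to a hyperbolic pair in `U`. -/
theorem partner_in {U : Submodule F (ι → F)} {e y : ι → F} (he : e ∈ U) (hy : y ∈ U) (hee : f e e = 0)
    (hey : f e y ≠ 0) : ∃ e' ∈ U, f e' e' = 0 ∧ f e e' = 1 ∧ f e' e = 1 := by
  obtain ⟨c, hc⟩ : ∃ c : F, σ c * f e y = 1 := ⟨σ ((f e y)⁻¹), by rw [hf.involutive, inv_mul_cancel₀ hey]⟩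
  set y' := c • y
  have hey' : f e y' = 1 := by rw [smul_right hf, hc]
  have hy'e : f y' e = 1 := by rw [hf.herm, hey', map_one]
  have hy'U : y' ∈ U := U.smul_mem c hy
  clear_value y'
  obtain ⟨x, hx⟩ := exists_trace hf (a := - f y' y') (by rw [map_neg, sigma_apply hf])
  refine ⟨y' + x • e, U.add_mem hy'U (U.smul_mem x he), ?_, ?_, ?_⟩
  · rw [hf.add_left, add_right hf, add_right hf, hf.smul_left, hf.smul_left, smul_right hf, smul_right hf, hee,
      hey', hy'e]
    linear_combination hx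
  · rw [add_right hf, smul_right hf, hee, hey', mul_zero, add_zero]
  · rw [hf.add_left, hf.smul_left, hee, hy'e, mul_zero, add_zero]

/-- Subspaces whose totally isotropic subspaces are small contain hyperbolic pairs. -/
theorem exists_pair_of_bound [Finite F] (U : Submodule F (ι → F))
    (hU : ∀ T ≤ U, (∀ u ∈ T, ∀ v ∈ T, f u v = 0) → Module.finrank F T + 1 < Module.finrank F U) :
    ∃ e ∈ U, ∃ e' ∈ U, f e e = 0 ∧ f e' e' = 0 ∧ f e e' = 1 ∧ f e' e = 1 := by
  suffices h : ∃ e ∈ U, ∃ y ∈ U, f e e = 0 ∧ f e y ≠ 0 by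
    obtain ⟨e, he, y, hy, hee, hey⟩ := h
    obtain ⟨e', he', h1, h2, h3⟩ := partner_in hf he hy hee hey
    exact ⟨e, he, e', he', hee, h1, h2, h3⟩
  obtain ⟨x, hx, x', hx', hxx⟩ : ∃ x ∈ U, ∃ x' ∈ U, f x x' ≠ 0 := by
    by_contra h
    push Not at h
    have := hU U le_rfl h
    omega
  by_cases hx0 : f x x = 0
  · exact ⟨x, hx, x', hx', hx0, hxx⟩
  set Ux := U ⊓ LinearMap.ker (fl hf x)
  have hdim : Module.finrank F U ≤ Module.finrank F Ux + 1 := by
    have h1 := Submodule.finrank_sup_add_finrank_inf_eq U (LinearMap.ker (fl hf x))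
    have h2 := Submodule.finrank_le (U ⊔ LinearMap.ker (fl hf x))
    have h3 := LinearMap.finrank_range_add_finrank_ker (fl hf x)
    have h4 := Submodule.finrank_le (LinearMap.range (fl hf x))
    rw [Module.finrank_self] at h4
    change Module.finrank F U ≤ Module.finrank F ↥(U ⊓ LinearMap.ker (fl hf x)) + 1
    omega
  obtain ⟨y, hy, hyy⟩ : ∃ y ∈ Ux, f y y ≠ 0 := by
    by_contra h
    push Not at h
    have hall : ∀ u ∈ Ux, ∀ v ∈ Ux, f u v = 0 := by
      intro u hu v hv
      by_contra hne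
      obtain ⟨z, hz⟩ : ∃ z, z + σ z ≠ 0 := by
        obtain ⟨w, hw⟩ := exists_trace hf (a := (1 : F)) (map_one σ)
        exact ⟨w, hw ▸ one_ne_zero⟩
      obtain ⟨c, hc⟩ : ∃ c, σ c * f u v = z := ⟨σ (z / f u v), by rw [hf.involutive, div_mul_cancel₀ _ hne]⟩
      have h1 := h (u + c • v) (Ux.add_mem hu (Ux.smul_mem c hv))
      rw [hf.add_left, add_right hf, add_right hf, hf.smul_left, hf.smul_left, smul_right hf, smul_right hf,
        h u hu, h v hv, hc] at h1
      have h2 : c * f v u = σ z := by rw [← hc, map_mul, hf.involutive, sigma_apply hf]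
      rw [h2] at h1
      exact hz (by linear_combination h1)
    have := hU Ux inf_le_left hall
    omega
  have hyx : f y x = 0 := hy.2
  have hxy : f x y = 0 := (eq_zero_comm hf).mp hyx
  obtain ⟨l, hl⟩ := exists_norm hf (a := -(f x x) / f y y) (by
    rw [map_div₀, map_neg, sigma_apply hf, sigma_apply hf])
  refine ⟨x + l • y, U.add_mem hx (U.smul_mem l hy.1), x, hx, ?_, ?_⟩
  · rw [hf.add_left, add_right hf, add_right hf, hf.smul_left, hf.smul_left, smul_right hf, smul_right hf,
      hxy, hyx, ← mul_assoc, hl, div_mul_cancel₀ _ hyy]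
    ring
  · rw [hf.add_left, hf.smul_left, hyx, mul_zero, add_zero]; exact hx0

/-- Large subspaces contain hyperbolic pairs. -/
theorem exists_pair_in [Finite F] (U : Submodule F (ι → F)) (hU : Fintype.card ι + 3 ≤ 2 * Module.finrank F U) :
    ∃ e ∈ U, ∃ e' ∈ U, f e e = 0 ∧ f e' e' = 0 ∧ f e e' = 1 ∧ f e' e = 1 :=
  exists_pair_of_bound hf U fun T _ hT => by
    have := ti_bound hf T hT
    omega

/-- A subspace containing a hyperbolic pair is spanned by its isotropic vectors. -/
theorem le_of_isotropic {U S : Submodule F (ι → F)} {e e' : ι → F} (he : e ∈ U) (he' : e' ∈ U) (hee : f e e = 0)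
    (he'e' : f e' e' = 0) (h1 : f e e' = 1) (h2 : f e' e = 1) (hS : ∀ w ∈ U, f w w = 0 → w ∈ S) : U ≤ S := by
  intro x hx
  set x' := x - f x e' • e - f x e • e' with hx'
  have a1 : f x' e = 0 := by
    rw [hx', sub_left hf, sub_left hf, hf.smul_left, hf.smul_left, hee, h2, mul_zero, mul_one, sub_zero, sub_self]
  have a2 : f x' e' = 0 := by
    rw [hx', sub_left hf, sub_left hf, hf.smul_left, hf.smul_left, h1, he'e', mul_zero, mul_one, sub_zero, sub_self]
  have a3 : f e x' = 0 := (eq_zero_comm hf).mp a1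
  have a4 : f e' x' = 0 := (eq_zero_comm hf).mp a2
  obtain ⟨t, ht⟩ := exists_trace hf (a := - f x' x') (by rw [map_neg, sigma_apply hf])
  have hx'U : x' ∈ U := U.sub_mem (U.sub_mem hx (U.smul_mem _ he)) (U.smul_mem _ he')
  have hiso : f (x' + e + t • e') (x' + e + t • e') = 0 := by
    simp only [hf.add_left, add_right hf, hf.smul_left, smul_right hf, a1, a2, a3, a4, hee, he'e', h1, h2]
    linear_combination ht
  have hw := hS _ (U.add_mem (U.add_mem hx'U he) (U.smul_mem t he')) hiso
  have heS := hS e he hee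
  have he'S := hS e' he' he'e'
  have e0 : x = (x' + e + t • e') + (f x e' - 1) • e + (f x e - t) • e' := by rw [hx']; module
  rw [e0]
  exact S.add_mem (S.add_mem hw (S.smul_mem _ heS)) (S.smul_mem _ he'S)

/-- Two isotropic vectors have a common isotropic non-orthogonal one. -/
theorem exists_common {v w : ι → F} (hv : v ≠ 0) (hw : w ≠ 0) (hvv : f v v = 0) (hww : f w w = 0) :
    ∃ u, f u u = 0 ∧ f v u ≠ 0 ∧ f w u ≠ 0 := by
  obtain ⟨y, hy⟩ := (hf.nondegenerate v hv).2
  obtain ⟨a, -, haa, hva, -⟩ := partner_in hf (U := ⊤) (e := v) Submodule.mem_top Submodule.mem_top hvv hy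
  obtain ⟨y', hy'⟩ := (hf.nondegenerate w hw).2
  obtain ⟨b, -, hbb, hwb, -⟩ := partner_in hf (U := ⊤) (e := w) Submodule.mem_top Submodule.mem_top hww hy'
  by_cases h1 : f w a = 0
  swap
  · exact ⟨a, haa, hva ▸ one_ne_zero, h1⟩
  by_cases h2 : f v b = 0
  swap
  · exact ⟨b, hbb, h2, hwb ▸ one_ne_zero⟩
  obtain ⟨ζ, hζ, hζ'⟩ := exists_skew hf
  obtain ⟨μ, hμ, hμ'⟩ : ∃ μ : F, μ ≠ 0 ∧ σ μ * f a b + μ * f b a = 0 := by
    by_cases hab : f a b = 0
    · exact ⟨1, one_ne_zero, by rw [hab, (eq_zero_comm hf).mp hab]; ring⟩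
    · exact ⟨ζ * f a b, mul_ne_zero hζ hab, by rw [map_mul, hζ', sigma_apply hf]; ring⟩
  refine ⟨a + μ • b, ?_, ?_, ?_⟩
  · rw [hf.add_left, add_right hf, add_right hf, hf.smul_left, hf.smul_left, smul_right hf, smul_right hf, haa, hbb]
    linear_combination hμ'
  · rw [add_right hf, smul_right hf, h2, hva]; simp
  · rw [add_right hf, smul_right hf, h1, hwb]; simpa using hμ

/-- Unitary transvection. -/
def uT {v : ι → F} (hv : f v v = 0) (d : F) : GL ι F :=
  transGL (d • fl hf v) v (by simp [fl_apply, hv])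

theorem uT_mulVec {v : ι → F} (hv : f v v = 0) (d : F) (x : ι → F) :
    (uT hf hv d : Matrix ι ι F) *ᵥ x = x + (d * f x v) • v := by simp [uT, fl_apply]

theorem uT_iso {v : ι → F} (hv : f v v = 0) {d : F} (hd : σ d = -d) (x y : ι → F) :
    f ((uT hf hv d : Matrix ι ι F) *ᵥ x) ((uT hf hv d : Matrix ι ι F) *ᵥ y) = f x y := by
  simp only [uT_mulVec, hf.add_left, add_right hf, hf.smul_left, smul_right hf, hv, map_mul, hd, sigma_apply hf]
  ring

theorem uT_mem_sim {v : ι → F} (hv : f v v = 0) {d : F} (hd : σ d = -d) :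
    uT hf hv d ∈ Cfsg.Geo.similarityGroup f ⊓ Cfsg.Geo.specialLinear ι F :=
  ⟨⟨1, fun x y => by rw [uT_iso hf hv hd, Units.val_one, one_mul]⟩, transGL_mem_sl _ _ _⟩

/-- The dimension of the common kernel of a family of functionals. -/
theorem finrank_perp {k : ℕ} (v : Fin k → (ι → F)) :
    Fintype.card ι ≤ Module.finrank F (LinearMap.ker (LinearMap.pi fun i => fl hf (v i))) + k := by
  have h1 := LinearMap.finrank_range_add_finrank_ker (LinearMap.pi fun i => fl hf (v i))
  have h2 := Submodule.finrank_le (LinearMap.range (LinearMap.pi fun i => fl hf (v i)))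
  rw [Module.finrank_pi] at h1 h2
  rw [Fintype.card_fin] at h2
  omega

theorem mem_perp {k : ℕ} (v : Fin k → (ι → F)) (x : ι → F) :
    x ∈ LinearMap.ker (LinearMap.pi fun i => fl hf (v i)) ↔ ∀ i, f x (v i) = 0 := by
  simp [LinearMap.mem_ker, funext_iff, fl_apply]

end Cfsg.Agent.H98.Herm
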