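import Cfsg.Agent.H98.HermBase
import Cfsg.Agent.H3.Generation
import Cfsg.Prelude.Def_LieClassical

set_option autoImplicit false
set_option linter.unusedSectionVars false

/-!
The standard Hermitian form as an abstract unitary form, and generation of `SU` by transvections.
-/

namespace Cfsg.Agent.H98.Herm

open scoped Matrix

variable {F : Type*} [Field F] [Fintype F] {q n : ℕ} (hF : Fintype.card F = q ^ 2)
include hF

/-- The involutive automorphism. -/
noncomputable def frobQ : F ≃+* F := RingEquiv.ofBijective (Cfsg.Agent.H3.conjQ hF) (Cfsg.Agent.H3.conjQ_bijective hF)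

theorem frobQ_apply (x : F) : frobQ hF x = x ^ q := rfl

/-- The standard form is unitary. -/
theorem isUnitary_std : Cfsg.Geo.IsUnitaryForm (frobQ hF) (Cfsg.hermForm n F q) where
  ne_refl := fun h => by
    have hall : ∀ x : F, x ^ q = x := fun x => by rw [← frobQ_apply hF, h, RingEquiv.refl_apply]
    have hq := Cfsg.Agent.H3.two_le_q hF
    have h1 := Cfsg.Agent.H3.card_pow_q_add_mul_le hF (-1 : F)
    rw [Nat.card_congr (Equiv.subtypeUnivEquiv fun x => by rw [hall x]; ring), Nat.card_eq_fintype_card, hF] at h1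
    nlinarith
  involutive a := Cfsg.Agent.H3.pow_q_pow_q hF a
  add_left := Cfsg.Agent.H3.hermForm_add_left hF
  smul_left := Cfsg.Agent.H3.hermForm_smul_left hF
  herm v w := (Cfsg.Agent.H3.hermForm_pow_q hF w v).symm
  nondegenerate := fun v hv => by
    obtain ⟨i, hi⟩ := Function.ne_iff.mp hv
    have hq : q ≠ 0 := by have := Cfsg.Agent.H3.two_le_q hF; omega
    constructor
    · exact ⟨Pi.single i 1, by rw [Cfsg.Agent.H3.hermForm_single_left, one_mul]; exact pow_ne_zero _ hi⟩
    · refine ⟨Pi.single i 1, fun h => ?_⟩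
      rw [Cfsg.Agent.H3.hermForm_eq_zero_comm hF, Cfsg.Agent.H3.hermForm_single_left, one_mul] at h
      exact pow_ne_zero _ hi h

/-- Elements of `GU` preserve the form. -/
theorem mem_GU_iff {g : GL (Fin n) F} :
    g ∈ Cfsg.GU n F q ↔ ∀ a b, Cfsg.hermForm n F q ((g : Matrix (Fin n) (Fin n) F) *ᵥ a)
      ((g : Matrix (Fin n) (Fin n) F) *ᵥ b) = Cfsg.hermForm n F q a b := Iff.rfl

/-- Unitary transvections lie in `SU`. -/
theorem uT_mem_su {v : Fin n → F} (hv : Cfsg.hermForm n F q v v = 0) {d : F} (hd : frobQ hF d = -d) :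
    uT (isUnitary_std hF) hv d ∈ Cfsg.GU n F q ⊓ Cfsg.Geo.specialLinear (Fin n) F :=
  ⟨fun a b => uT_iso (isUnitary_std hF) hv hd a b, transGL_mem_sl _ _ _⟩

/-- `SU` is generated by unitary transvections. -/
theorem su_le_of_uT (hn : 4 ≤ n) {M : Subgroup (GL (Fin n) F)}
    (h : ∀ v, ∀ hv : Cfsg.hermForm n F q v v = 0, ∀ d, frobQ hF d = -d → uT (isUnitary_std hF) hv d ∈ M) :
    Cfsg.GU n F q ⊓ Cfsg.Geo.specialLinear (Fin n) F ≤ M := by
  rintro g ⟨hg, hdet⟩
  have hker : (⟨g, hg⟩ : Cfsg.GU n F q) ∈ (Cfsg.Agent.H3.guDet n F q).ker := MonoidHom.mem_ker.mp hdet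
  have hle : Cfsg.Agent.H3.transGroup n F q ≤ M.comap (Cfsg.GU n F q).subtype := by
    refine (Subgroup.closure_le _).2 ?_
    rintro s ⟨v, c, hv, hs⟩
    change (s : GL (Fin n) F) ∈ M
    rcases eq_or_ne v 0 with rfl | hv0
    · convert M.one_mem using 1
      refine gl_ext fun x => ?_
      change (s.1 : Matrix (Fin n) (Fin n) F) *ᵥ x = _
      rw [hs, Cfsg.Agent.H3.unitaryTransvection_mulVec]; simp
    have hc : c + c ^ q = 0 := Cfsg.Agent.H3.trace_zero_of_transvection_preserves hF hv0 hv fun x y => by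
      rw [← hs]; exact s.2 x y
    convert h v hv c (by rw [frobQ_apply]; linear_combination hc) using 1
    refine gl_ext fun x => ?_
    change (s.1 : Matrix (Fin n) (Fin n) F) *ᵥ x = _
    rw [hs, Cfsg.Agent.H3.unitaryTransvection_mulVec, uT_mulVec]
  exact hle (Cfsg.Agent.H3.ker_le_transGroup hF (by omega) (by omega) hker)

end Cfsg.Agent.H98.Herm
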