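import Cfsg.Agent.H98.HermBase

set_option autoImplicit false
set_option linter.unusedSectionVars false

/-!
Orthogonal complements, non-degenerate subspaces and Eichler elements for an abstract unitary form; the closure
properties of an invariant set of transvection centres.
-/

namespace Cfsg.Agent.H98.Herm

open scoped Matrix

variable {ι : Type} [Fintype ι] [DecidableEq ι] {F : Type*} [Field F] [Finite F]
variable {σ : F ≃+* F} {f : (ι → F) → (ι → F) → F} (hf : Cfsg.Geo.IsUnitaryForm σ f)

include hf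

/-- The subspace orthogonal to `W`. -/
def perp (W : Submodule F (ι → F)) : Submodule F (ι → F) := ⨅ w : W, LinearMap.ker (fl hf (w : ι → F))

theorem mem_perpW {W : Submodule F (ι → F)} {x : ι → F} : x ∈ perp hf W ↔ ∀ w ∈ W, f x w = 0 := by
  simp [perp, Submodule.mem_iInf, fl_apply]

theorem perp_perp (W : Submodule F (ι → F)) : perp hf (perp hf W) = W := by
  refine le_antisymm (fun x hx => ?_) fun w hw => (mem_perpW hf).mpr fun y hy =>
    (eq_zero_comm hf).mp ((mem_perpW hf).mp hy w hw)
  by_contra hne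
  obtain ⟨φ, hφx, hφ⟩ := exists_functional hne
  obtain ⟨b, rfl⟩ := fl_surjective hf φ
  have hb : b ∈ perp hf W := (mem_perpW hf).mpr fun w hw => (eq_zero_comm hf).mp (LinearMap.mem_ker.mp (hφ hw))
  rw [fl_apply, (mem_perpW hf).mp hx b hb] at hφx
  exact zero_ne_one hφx

/-- The orthogonal space has dimension at least the codimension. -/
theorem finrank_perpW (W : Submodule F (ι → F)) :
    Fintype.card ι ≤ Module.finrank F (perp hf W) + Module.finrank F W := by
  let b := Module.finBasis F W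
  refine (finrank_perp hf fun i => (b i : ι → F)).trans ?_
  refine Nat.add_le_add_right (Submodule.finrank_mono fun x hx => ?_) _
  rw [mem_perpW hf]
  intro w hw
  have h1 := (mem_perp hf _ x).mp hx
  have e : w = ∑ i, b.repr ⟨w, hw⟩ i • (b i : ι → F) := by
    have := congrArg Subtype.val (b.sum_repr ⟨w, hw⟩)
    simp only [Submodule.coe_sum, Submodule.coe_smul] at this
    exact this.symm
  rw [e, eq_zero_comm hf, ← fl_apply hf, map_sum]
  refine Finset.sum_eq_zero fun i _ => ?_
  rw [map_smul, fl_apply, (eq_zero_comm hf).mp (h1 i), smul_zero]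

/-- A non-degenerate subspace and its orthogonal space are complementary. -/
theorem isCompl_perp {W : Submodule F (ι → F)} (hW : ∀ x ∈ W, x ∈ perp hf W → x = 0) : IsCompl W (perp hf W) := by
  have hdis : Disjoint W (perp hf W) := Submodule.disjoint_def.mpr hW
  refine ⟨hdis, codisjoint_iff.mpr (Submodule.eq_top_of_finrank_eq ?_)⟩
  have h1 := Submodule.finrank_sup_add_finrank_inf_eq W (perp hf W)
  rw [hdis.eq_bot, finrank_bot, add_zero] at h1
  have h2 := finrank_perpW hf W
  have h3 := Submodule.finrank_le (W ⊔ perp hf W)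
  rw [Module.finrank_pi] at h3 ⊢
  omega

/-- A totally isotropic subspace of a non-degenerate subspace has at most half its dimension. -/
theorem ti_bound_rel {V₀ T : Submodule F (ι → F)} (hV : ∀ x ∈ V₀, x ∈ perp hf V₀ → x = 0) (hT : T ≤ V₀)
    (hTT : ∀ u ∈ T, ∀ v ∈ T, f u v = 0) : 2 * Module.finrank F T ≤ Module.finrank F V₀ := by
  obtain ⟨C, hC⟩ := Submodule.exists_isCompl (T.comap V₀.subtype)
  haveI : Module.Free F C := Module.Free.of_divisionRing F C
  let b := Module.finBasis F C
  let L : T →ₗ[F] (Fin (Module.finrank F C) → F) :=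
    LinearMap.pi fun i => (fl hf ((b i : V₀) : ι → F)).comp T.subtype
  have hL : Function.Injective L := by
    rw [injective_iff_map_eq_zero]
    intro u hu
    refine Subtype.ext (hV _ (hT u.2) ((mem_perpW hf).mpr fun x hx => ?_))
    obtain ⟨w, hw, c, hc, hsum⟩ := Submodule.mem_sup.mp (hC.sup_eq_top.ge (Submodule.mem_top (x := (⟨x, hx⟩ : V₀))))
    have e : x = (w : ι → F) + ∑ i, b.repr ⟨c, hc⟩ i • ((b i : V₀) : ι → F) := by
      have h1 := congrArg (fun z : V₀ => (z : ι → F)) hsum
      have h2 := congrArg (fun z : C => ((z : V₀) : ι → F)) (b.sum_repr ⟨c, hc⟩)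
      simp only [Submodule.coe_sum, Submodule.coe_smul, Submodule.coe_add] at h1 h2
      rw [h2]; exact h1.symm
    rw [e, add_right hf, hTT u u.2 (w : ι → F) hw, zero_add, eq_zero_comm hf, ← fl_apply hf, map_sum]
    refine Finset.sum_eq_zero fun i _ => ?_
    rw [map_smul, fl_apply, (eq_zero_comm hf).mp (show f (u : ι → F) ((b i : V₀) : ι → F) = 0 from congrFun hu i),
      smul_zero]
  have h1 := LinearMap.finrank_le_finrank_of_injective hL
  have h2 := Submodule.finrank_add_eq_of_isCompl hC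
  rw [(Submodule.comapSubtypeEquivOfLe hT).finrank_eq] at h2
  rw [Module.finrank_pi, Fintype.card_fin] at h1
  omega

/-- A non-degenerate subspace of dimension at least two contains a hyperbolic pair. -/
theorem exists_pair_nondeg {W : Submodule F (ι → F)} (hW : ∀ x ∈ W, x ∈ perp hf W → x = 0)
    (hdim : 2 ≤ Module.finrank F W) :
    ∃ e ∈ W, ∃ e' ∈ W, f e e = 0 ∧ f e' e' = 0 ∧ f e e' = 1 ∧ f e' e = 1 := by
  suffices h : ∃ e ∈ W, e ≠ 0 ∧ f e e = 0 by
    obtain ⟨e, he, he0, hee⟩ := h
    obtain ⟨y, hy, hey⟩ : ∃ y ∈ W, f e y ≠ 0 := by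
      by_contra hc; push Not at hc
      exact he0 (hW e he ((mem_perpW hf).mpr hc))
    obtain ⟨e', he', h1, h2, h3⟩ := partner_in hf he hy hee hey
    exact ⟨e, he, e', he', hee, h1, h2, h3⟩
  obtain ⟨x, hx, hx0⟩ := Submodule.exists_mem_ne_zero_of_ne_bot
    (show W ≠ ⊥ from fun h => by rw [h, finrank_bot] at hdim; omega)
  by_cases hxx : f x x = 0
  · exact ⟨x, hx, hx0, hxx⟩
  obtain ⟨y, hy, hy0⟩ := Submodule.exists_mem_ne_zero_of_ne_bot
    (show W ⊓ LinearMap.ker (fl hf x) ≠ ⊥ from fun h => by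
      have h1 := Submodule.finrank_sup_add_finrank_inf_eq W (LinearMap.ker (fl hf x))
      have h2 := Submodule.finrank_le (W ⊔ LinearMap.ker (fl hf x))
      have h3 := LinearMap.finrank_range_add_finrank_ker (fl hf x)
      have h4 := Submodule.finrank_le (LinearMap.range (fl hf x))
      rw [Module.finrank_self] at h4
      rw [h, finrank_bot] at h1
      omega)
  have hyx : f y x = 0 := hy.2
  by_cases hyy : f y y = 0
  · exact ⟨y, hy.1, hy0, hyy⟩
  obtain ⟨l, hl⟩ := exists_norm hf (a := -(f x x) / f y y) (by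
    rw [map_div₀, map_neg, sigma_apply hf, sigma_apply hf])
  refine ⟨x + l • y, W.add_mem hx (W.smul_mem l hy.1), fun h0 => ?_, ?_⟩
  · have : f (x + l • y) x = 0 := by rw [h0, zero_left hf]
    rw [hf.add_left, hf.smul_left, hyx, mul_zero, add_zero] at this
    exact hxx this
  · rw [hf.add_left, add_right hf, add_right hf, hf.smul_left, hf.smul_left, smul_right hf, smul_right hf, hyx,
      (eq_zero_comm hf).mp hyx, ← mul_assoc, hl, div_mul_cancel₀ _ hyy]
    ring

/-- A unitary transvection with centre in `W` or orthogonal to `W` stabilises `W`. -/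
theorem uT_stab {W : Submodule F (ι → F)} {v : ι → F} (hv : f v v = 0) (hW : v ∈ W ∨ v ∈ perp hf W) (d : F) :
    uT hf hv d ∈ Cfsg.Geo.subspaceStabilizer W := by
  refine stab_of_maps_into fun w hw => ?_
  rw [uT_mulVec]
  rcases hW with h | h
  · exact W.add_mem hw (W.smul_mem _ h)
  · rw [(eq_zero_comm hf).mp ((mem_perpW hf).mp h w hw), mul_zero, zero_smul, add_zero]; exact hw

/-- The Eichler element of `z` and `x`. -/
def eich {x z : ι → F} (hz : f z z = 0) (hxz : f x z = 0) (γ : F) : GL ι F :=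
  transGL (fl hf z) (x + γ • z) (by rw [fl_apply, hf.add_left, hf.smul_left, hxz, hz, mul_zero, add_zero]) *
    transGL (-(fl hf x)) z (by rw [LinearMap.neg_apply, fl_apply, (eq_zero_comm hf).mp hxz, neg_zero])

theorem eich_mulVec {x z : ι → F} (hz : f z z = 0) (hxz : f x z = 0) (γ : F) (y : ι → F) :
    (eich hf hz hxz γ : Matrix ι ι F) *ᵥ y = y - f y x • z + f y z • (x + γ • z) := by
  simp only [eich, Units.val_mul, ← Matrix.mulVec_mulVec, transGL_mulVec, fl_apply, LinearMap.neg_apply,
    hf.add_left, hf.smul_left, hz, mul_zero, add_zero]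
  module

theorem eich_iso {x z : ι → F} (hz : f z z = 0) (hxz : f x z = 0) {γ : F} (hγ : γ + σ γ + f x x = 0) (a b : ι → F) :
    f ((eich hf hz hxz γ : Matrix ι ι F) *ᵥ a) ((eich hf hz hxz γ : Matrix ι ι F) *ᵥ b) = f a b := by
  simp only [eich_mulVec, sub_left hf, sub_right hf, hf.add_left, add_right hf, hf.smul_left, smul_right hf, hz, hxz,
    (eq_zero_comm hf).mp hxz, sigma_apply hf]
  linear_combination (f a z * f z b) * hγ

theorem eich_mem_sl {x z : ι → F} (hz : f z z = 0) (hxz : f x z = 0) (γ : F) :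
    eich hf hz hxz γ ∈ Cfsg.Geo.specialLinear ι F := by
  rw [eich]; exact Subgroup.mul_mem _ (transGL_mem_sl _ _ _) (transGL_mem_sl _ _ _)

/-- Conjugating a unitary transvection by an isometry. -/
theorem conj_uT {g : GL ι F} (hg : ∀ a b, f ((g : Matrix ι ι F) *ᵥ a) ((g : Matrix ι ι F) *ᵥ b) = f a b) {v : ι → F}
    (hv : f v v = 0) (d : F) (hv' : f ((g : Matrix ι ι F) *ᵥ v) ((g : Matrix ι ι F) *ᵥ v) = 0) :
    g * uT hf hv d * g⁻¹ = uT hf hv' d := by
  refine gl_ext fun y => ?_
  simp only [Units.val_mul, ← Matrix.mulVec_mulVec, uT_mulVec, Matrix.mulVec_add, Matrix.mulVec_smul, gl_mulVec_inv]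
  rw [← hg (((g⁻¹ : GL ι F) : Matrix ι ι F) *ᵥ y) v, gl_mulVec_inv]

/-- Scaling the centre of a unitary transvection. -/
theorem uT_smul {v : ι → F} (hv : f v v = 0) (k d : F) (hv' : f (k • v) (k • v) = 0) :
    uT hf hv' d = uT hf hv (k * σ k * d) := by
  refine gl_ext fun y => ?_
  simp only [uT_mulVec, smul_right hf, smul_smul]
  ring_nf

/-- The centres of the unitary transvections contained in `M`. -/
def centres (M : Subgroup (GL ι F)) : Set (ι → F) :=
  {v | ∃ h : f v v = 0, ∀ d, σ d = -d → uT hf h d ∈ M}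

variable {M : Subgroup (GL ι F)}

theorem centres_conj (hM : ∀ g ∈ M, ∀ a b, f ((g : Matrix ι ι F) *ᵥ a) ((g : Matrix ι ι F) *ᵥ b) = f a b)
    {g : GL ι F} (hg : g ∈ M) {v : ι → F} (hv : v ∈ centres hf M) : (g : Matrix ι ι F) *ᵥ v ∈ centres hf M := by
  obtain ⟨h, hd⟩ := hv
  refine ⟨by rw [hM g hg]; exact h, fun d hdd => ?_⟩
  rw [← conj_uT hf (hM g hg) h]
  exact M.mul_mem (M.mul_mem hg (hd d hdd)) (M.inv_mem hg)

theorem centres_smul {v : ι → F} (hv : v ∈ centres hf M) (k : F) : k • v ∈ centres hf M := by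
  obtain ⟨h, hd⟩ := hv
  refine ⟨by rw [hf.smul_left, smul_right hf, h, mul_zero, mul_zero], fun d hdd => ?_⟩
  rw [uT_smul hf h]
  exact hd _ (by rw [map_mul, map_mul, hf.involutive, hdd]; ring)

/-- Isotropic vectors spanned by two non-orthogonal centres are centres. -/
theorem centres_pair (hM : ∀ g ∈ M, ∀ a b, f ((g : Matrix ι ι F) *ᵥ a) ((g : Matrix ι ι F) *ᵥ b) = f a b)
    {u v : ι → F} (hu : u ∈ centres hf M) (hv : v ∈ centres hf M) (huv : f u v ≠ 0) {k l : F}
    (hiso : f (k • u + l • v) (k • u + l • v) = 0) : k • u + l • v ∈ centres hf M := by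
  rcases eq_or_ne k 0 with rfl | hk
  · rw [zero_smul, zero_add]; exact centres_smul hf hv l
  have huu : f u u = 0 := hu.1
  obtain ⟨hvv, hvM⟩ := hv
  simp only [hf.add_left, add_right hf, hf.smul_left, smul_right hf, huu, hvv, mul_zero, add_zero, zero_add] at hiso
  have hσk : σ k ≠ 0 := by simpa using hk
  have hvu : f v u ≠ 0 := fun h => huv ((eq_zero_comm hf).mp h)
  have hd : σ (l / (k * f u v)) = -(l / (k * f u v)) := by
    rw [map_div₀, map_mul, sigma_apply hf, ← neg_div, div_eq_div_iff (mul_ne_zero hσk hvu) (mul_ne_zero hk huv)]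
    linear_combination hiso
  have := centres_conj hf hM (hvM _ hd) (centres_smul hf hu k)
  rwa [uT_mulVec, hf.smul_left, div_mul_cancel₀ _ (mul_ne_zero hk huv)] at this

end Cfsg.Agent.H98.Herm
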