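import Cfsg.Agent.H98.MaximalBase
import Cfsg.Agent.H1.Generation

set_option autoImplicit false

/-!
The stabiliser of a proper non-zero subspace is maximal in the special linear group.
-/

namespace Cfsg.Agent.H98

open scoped Matrix

variable {ι : Type} [Fintype ι] [DecidableEq ι] {F : Type*} [Field F]

/-- A subgroup of `GL` with all transvections contains `SL`. -/
theorem sl_le_of_transvections (M : Subgroup (GL ι F))
    (h : ∀ (φ : (ι → F) →ₗ[F] F) (a : ι → F) (ha : φ a = 0), transGL φ a ha ∈ M) :
    Cfsg.Geo.specialLinear ι F ≤ M := by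
  intro g hg
  have hdet : (g : Matrix ι ι F).det = 1 := congrArg Units.val (MonoidHom.mem_ker.mp hg)
  have htop := Cfsg.Agent.H1.SL_eq_top_of_transvection_mem
    (M.comap (Matrix.SpecialLinearGroup.toGL : Matrix.SpecialLinearGroup ι F →* GL ι F)) (fun i j hij c => by
      rw [Subgroup.mem_comap]
      convert h (c • LinearMap.proj j) (Pi.single i 1) (by simp [hij.symm]) using 1
      refine gl_ext fun v => ?_
      rw [transGL_mulVec]
      change (Matrix.SpecialLinearGroup.transvection hij c : Matrix ι ι F) *ᵥ v = _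
      rw [Matrix.SpecialLinearGroup.transvection_coe]
      ext k
      simp [Matrix.add_mulVec, Matrix.one_mulVec, Matrix.single_mulVec, Pi.single_apply, Function.update_apply,
        mul_comm])
  have : Matrix.SpecialLinearGroup.toGL ⟨(g : Matrix ι ι F), hdet⟩ ∈ M :=
    Subgroup.mem_comap.mp (htop.ge (Subgroup.mem_top (G := Matrix.SpecialLinearGroup ι F) (⟨(g : Matrix ι ι F), hdet⟩ : Matrix.SpecialLinearGroup ι F)))
  convert this using 1
  exact Units.ext rfl

/-- Stabilisers of subspaces are maximal in `SL`. -/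
theorem sl_stab_maximal (W : Submodule F (ι → F)) (hW0 : W ≠ ⊥) (hW1 : W ≠ ⊤) :
    Cfsg.Geo.IsMaximalIn (Cfsg.Geo.specialLinear ι F)
      (Cfsg.Geo.subspaceStabilizer W ⊓ Cfsg.Geo.specialLinear ι F) := by
  refine isMaximalIn_of inf_le_right ?_ ?_
  · obtain ⟨w, hw, hw0⟩ := Submodule.exists_mem_ne_zero_of_ne_bot hW0
    obtain ⟨a, -, ha⟩ := SetLike.exists_of_lt (lt_top_iff_ne_top.mpr hW1)
    have hwa : w ∉ Submodule.span F {a} := by
      intro h
      obtain ⟨c, rfl⟩ := Submodule.mem_span_singleton.mp h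
      refine ha ?_
      have hc : c ≠ 0 := fun h => hw0 (by simp [h])
      simpa [hc] using W.smul_mem c⁻¹ hw
    obtain ⟨φ, hφ, hk⟩ := exists_functional hwa
    have ha0 : φ a = 0 := LinearMap.mem_ker.mp (hk (Submodule.mem_span_singleton_self a))
    exact ⟨transGL φ a ha0, transGL_mem_sl φ a ha0, fun h => transGL_not_stab φ a ha0 hw hφ ha h.1⟩
  intro M hHM hMK g hg hgH
  -- centres of transvection groups contained in `M`
  let C : Set (ι → F) := {a | ∀ (φ : (ι → F) →ₗ[F] F) (ha : φ a = 0), transGL φ a ha ∈ M}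
  have hCW : ∀ a ∈ W, a ∈ C := by
    intro a ha φ hφa
    refine hHM ⟨stab_of_maps_into fun w hw => ?_, transGL_mem_sl φ a hφa⟩
    rw [transGL_mulVec]
    exact W.add_mem hw (W.smul_mem _ ha)
  have hCconj : ∀ h ∈ M, ∀ a ∈ C, (h : Matrix ι ι F) *ᵥ a ∈ C := by
    intro h hh a ha φ hφ
    have h0 : (φ.comp (Matrix.mulVecLin (h : Matrix ι ι F))) a = 0 := by simpa using hφ
    have := M.mul_mem (M.mul_mem hh (ha _ h0)) (M.inv_mem hh)
    rw [conj_transGL] at this
    convert this using 1
    exact gl_ext fun v => by simp [gl_mulVec_inv]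
  have hCsmul : ∀ a ∈ C, ∀ c : F, c • a ∈ C := by
    intro a ha c φ hφ
    by_cases hc : c = 0
    · subst hc
      convert M.one_mem
      exact gl_ext fun v => by simp
    · have h0 : (c • φ) a = 0 := by simpa [map_smul] using hφ
      have := ha _ h0
      convert this using 1
      exact gl_ext fun v => by simp [smul_smul, mul_comm]
  obtain ⟨w, hw, hgw⟩ := exists_moved_out (fun h => hgH ⟨h, hMK hg⟩)
  set u := (g : Matrix ι ι F) *ᵥ w with hu
  have huC : u ∈ C := hCconj g hg w (hCW w hw)
  refine sl_le_of_transvections M fun φ v hφ => ?_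
  refine (show v ∈ C from ?_) φ hφ
  by_cases hv : v ∈ W
  · exact hCW v hv
  by_cases hspan : v ∈ W ⊔ Submodule.span F {u}
  · obtain ⟨a, ha, z, hz, rfl⟩ := Submodule.mem_sup.mp hspan
    obtain ⟨c, rfl⟩ := Submodule.mem_span_singleton.mp hz
    have hc : c ≠ 0 := fun h => hv (by simpa [h] using ha)
    by_cases ha0 : a = 0
    · simpa [ha0] using hCsmul u huC c
    have hnot : u ∉ Submodule.span F {a} := fun h => hgw ((Submodule.span_singleton_le_iff_mem _ _).mpr ha h)
    obtain ⟨ψ, hψ, hk⟩ := exists_functional hnot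
    have hψa : ψ (c⁻¹ • a) = 0 :=
      LinearMap.mem_ker.mp (hk (Submodule.smul_mem _ _ (Submodule.mem_span_singleton_self a)))
    have hmem : transGL ψ (c⁻¹ • a) hψa ∈ M := hCW _ (W.smul_mem _ ha) ψ hψa
    have := hCsmul _ (hCconj _ hmem u huC) c
    rw [transGL_mulVec, hψ, one_smul, smul_add, smul_smul, mul_inv_cancel₀ hc, one_smul, add_comm] at this
    exact this
  · have hnot : u ∉ W ⊔ Submodule.span F {v - u} := by
      intro h
      obtain ⟨a, ha, z, hz, he⟩ := Submodule.mem_sup.mp h
      obtain ⟨c, rfl⟩ := Submodule.mem_span_singleton.mp hz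
      by_cases hc : c = 0
      · exact hgw (by rw [← he]; simpa [hc] using ha)
      · apply hspan
        have : v = (-(c⁻¹)) • a + (c⁻¹ + 1) • u := by
          have e : c • v = -a + (1 + c) • u := by
            calc c • v = (a + c • (v - u)) + (-a + c • u) := by module
              _ = u + (-a + c • u) := by rw [he]
              _ = -a + (1 + c) • u := by module
          rw [← one_smul F v, ← inv_mul_cancel₀ hc, mul_smul, e]
          match_scalars <;> field_simp
        rw [this]
        exact Submodule.mem_sup.mpr ⟨_, W.smul_mem _ ha, _,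
          Submodule.mem_span_singleton.mpr ⟨_, rfl⟩, rfl⟩
    obtain ⟨ψ, hψ, hk⟩ := exists_functional hnot
    have hψa : ψ (v - u) = 0 :=
      LinearMap.mem_ker.mp (hk (Submodule.mem_sup_right (Submodule.mem_span_singleton_self _)))
    have hmem : transGL ψ (v - u) hψa ∈ M :=
      hHM ⟨transGL_stab_of_ker ψ _ hψa (le_sup_left.trans hk), transGL_mem_sl ψ _ hψa⟩
    have := hCconj _ hmem u huC
    rwa [transGL_mulVec, hψ, one_smul, add_sub_cancel] at this

end Cfsg.Agent.H98
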